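import Cfsg.Agent.H22.Cn1
import Cfsg.Agent.H28.Fa1

/-!
# Fixed space counts for `3`-subgroups of alternating sections: general part
-/

set_option autoImplicit false

open Module Equiv Equiv.Perm

namespace H22.Cn
open H28.Al H28.Ea

universe u v

section LA
variable {k V : Type*} [Field k] [AddCommGroup V] [Module k V]

theorem diag_J {ι E : Type*} [Fintype ι] (b : Basis ι k V) (T : E → End k V) (a : ι → E → k)
    (h : ∀ i e, T e (b i) = a i e • b i) (P : ι → Prop) [DecidablePred P] (hP : ∀ i, P i ↔ ∀ e, a i e = 1) :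
    finrank k (J T 1) = (Finset.univ.filter P).card := by
  classical
  have h1 : ∀ e v i, b.repr (T e v) i = a i e * b.repr v i := fun e v i => by
    conv_lhs => rw [← b.sum_repr v]
    simp only [map_sum, map_smul, h, Finsupp.finset_sum_apply, Finsupp.smul_apply, b.repr_self, smul_eq_mul]
    rw [Finset.sum_eq_single i (fun j _ hj => by simp [hj]) (by simp)]
    simp [mul_comm]
  have h2 : J T 1 = Submodule.span k (Set.range fun i : {i // P i} => b i) := by
    rw [show (Set.range fun i : {i // P i} => b i) = b '' {i | P i} from (Set.image_eq_range _ _).symm]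
    ext v
    rw [mem_J, b.mem_span_image]
    constructor
    · intro q i hi
      refine (hP i).2 fun e => ?_
      have q1 := h1 e v i
      rw [q e, map_smul, Finsupp.smul_apply, smul_eq_mul] at q1
      exact (mul_right_cancel₀ (Finsupp.mem_support_iff.1 hi) q1).symm
    · intro q e
      refine b.repr.injective (Finsupp.ext fun i => ?_)
      rw [h1, map_smul, Finsupp.smul_apply, smul_eq_mul]
      by_cases q1 : b.repr v i = 0
      · rw [q1, mul_zero, mul_zero]
      · rw [(hP i).1 (q (Finsupp.mem_support_iff.2 q1)) e]; rfl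
  rw [h2, finrank_span_eq_card (b := fun i : {i // P i} => b i) (b.linearIndependent.comp _ Subtype.val_injective),
    Fintype.card_subtype]

variable [IsAlgClosed k] [FiniteDimensional k V]

theorem cntJ {l : ℕ} [Fact l.Prime] (hl : (l : k) ≠ 0) {E : Type*} [CommGroup E] [Fintype E] (hE : ∀ a : E, a ^ l = 1)
    (σ : E →* End k V) : l * ∑ a, finrank k (Eg (σ a) 1) + Fintype.card E * finrank k (J σ 1) =
      Fintype.card E * (finrank k V + l * finrank k (J σ 1)) := by
  classical
  obtain ⟨s, h1, h3, h4⟩ := exists_linearIndependent k {v | ∀ a, ∃ c : k, σ a v = c • v}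
  rw [eig_span hl σ (fun a b => by rw [← map_mul, mul_comm, map_mul]) fun a => by rw [← map_pow, hE, map_one]] at h3
  let b : Basis s k V := Basis.mk h4 (by rw [Subtype.range_coe, h3])
  have := h4.finite
  have := Fintype.ofFinite s
  have hb : ∀ i a, ∃ c : k, σ a (b i) = c • b i := fun i => by rw [Basis.mk_apply]; exact h1 i.2
  choose c hc using hb
  let ε : s → E →* k := fun i =>
    { toFun := c i
      map_one' := smul_left_injective k (b.ne_zero i) (by
        change c i 1 • b i = (1 : k) • b i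
        rw [← hc, map_one, one_smul]; rfl)
      map_mul' := fun x y => smul_left_injective k (b.ne_zero i) (by
        change c i (x * y) • b i = (c i x * c i y) • b i
        rw [← hc, map_mul, Module.End.mul_apply, hc, map_smul, hc, smul_smul, mul_comm]) }
  have ht : ∀ a, finrank k (Eg (σ a) 1) = ∑ i, if ε i a = 1 then 1 else 0 := fun a => by
    rw [diag_rk b (σ a) (fun i => c i a) (fun i => hc i a) 1 (fun i => ε i a = 1) fun i => Iff.rfl,
      Finset.card_filter]
  have hk : ∀ i, l * (∑ a, if ε i a = 1 then 1 else 0) + Fintype.card E * (if ε i = 1 then 1 else 0) =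
      Fintype.card E * (1 + l * if ε i = 1 then 1 else 0) := fun i => by
    by_cases q : ε i = 1
    · simp [q]; ring
    · simp only [q, if_false, mul_zero, add_zero, mul_one]
      let χ := (ε i).toHomUnits
      have e1 : (∑ a, if ε i a = 1 then 1 else 0) = Nat.card χ.ker := by
        rw [← Finset.card_filter, Nat.card_eq_fintype_card, Fintype.card_subtype]
        congr 1
        ext a
        simp [χ, Units.ext_iff]
      have e2 : Nat.card χ.range = l := by
        have c1 : IsCyclic χ.range := isCyclic_subgroup_units _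
        obtain ⟨g, hg⟩ := c1.exists_ofOrder_eq_natCard
        have c2 : orderOf g ∣ l := orderOf_dvd_of_pow_eq_one (by
          obtain ⟨_, a, rfl⟩ := g
          exact Subtype.ext (by change χ a ^ l = 1; rw [← map_pow, hE, map_one]))
        rw [hg] at c2
        refine ((Nat.dvd_prime Fact.out).1 c2).resolve_left fun c3 => q (MonoidHom.ext fun a => ?_)
        have c4 := (Subgroup.card_eq_one.1 c3).le (MonoidHom.mem_range.2 ⟨a, rfl⟩)
        exact congrArg Units.val (Subgroup.mem_bot.1 c4)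
      rw [e1, ← e2, ← Subgroup.index_ker, mul_comm, Subgroup.card_mul_index, Nat.card_eq_fintype_card]
  rw [diag_J b σ c hc (fun i => ε i = 1) fun i => ⟨fun q e => DFunLike.congr_fun q e, fun q => MonoidHom.ext q⟩,
    Finset.card_filter]
  simp only [ht]
  rw [Finset.sum_comm, finrank_eq_card_basis b, Finset.mul_sum, Finset.mul_sum, Finset.mul_sum, ← Finset.sum_add_distrib,
    Finset.sum_congr rfl fun i _ => hk i, ← Finset.mul_sum, Finset.sum_add_distrib]
  simp

end LA

section W
variable {G : Type*} [Group G]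

/-- word in six elements -/
def wd (g : Fin 6 → G) (a : Fin 6 → ZMod 3) : G :=
  g 0 ^ (a 0).val * (g 1 ^ (a 1).val * (g 2 ^ (a 2).val * (g 3 ^ (a 3).val * (g 4 ^ (a 4).val * g 5 ^ (a 5).val))))

theorem wd_map {H : Type*} [Group H] (f : G →* H) (g : Fin 6 → G) (a : Fin 6 → ZMod 3) :
    f (wd g a) = wd (fun i => f (g i)) a := by
  simp only [wd, map_mul, map_pow]

theorem pw3 {x : G} (h : x ^ 3 = 1) (a b : ZMod 3) : x ^ (a + b).val = x ^ a.val * x ^ b.val := by
  rw [← pow_add, ZMod.val_add, ← pow_eq_pow_mod _ h]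

/-- the word map as a homomorphism -/
def wh (g : Fin 6 → G) (hc : ∀ s t, g s * g t = g t * g s) (h3 : ∀ s, g s ^ 3 = 1) :
    Multiplicative (Fin 6 → ZMod 3) →* G :=
  MonoidHom.mk' (fun a => wd g a.toAdd) fun a b => by
    let C := Subgroup.closure (Set.range g)
    letI : CommGroup C := Subgroup.closureCommGroupOfComm (by rintro _ ⟨s, rfl⟩ _ ⟨t, rfl⟩; exact hc s t)
    let g' : Fin 6 → C := fun s => ⟨g s, Subgroup.subset_closure ⟨s, rfl⟩⟩
    have h3' : ∀ s, g' s ^ 3 = 1 := fun s => Subtype.ext (h3 s)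
    have e : ∀ a, wd g a = C.subtype (wd g' a) := fun a => (wd_map C.subtype g' a).symm
    rw [e, e, e, ← map_mul]
    congr 1
    simp only [wd, toAdd_mul, Pi.add_apply, pw3 (h3' _)]
    ac_rfl

theorem wd_single (g : Fin 6 → G) (s : Fin 6) : wd g (Pi.single s 1) = g s := by
  have e1 : (1 : ZMod 3).val = 1 := rfl
  fin_cases s <;> simp [wd, e1]

end W

variable {k V : Type u} [Field k] [IsAlgClosed k] [AddCommGroup V] [Module k V] [FiniteDimensional k V]
  {G : Type v} [Group G] {r : ℕ}

theorem cnt6 (ρ : G →* End k V) (h3 : (3 : k) ≠ 0) (g : Fin 6 → G) (hc : ∀ s t, g s * g t = g t * g s)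
    (hg : ∀ s, g s ^ 3 = 1) : 3 * ∑ a : Fin 6 → ZMod 3, finrank k (Eg (ρ (wd g a)) 1) =
      729 * (finrank k V + 2 * finrank k (J (fun s => ρ (g s)) 1)) := by
  have h := cntJ (l := 3) (by exact_mod_cast h3) pow_l (ρ.comp (wh g hc hg))
  have e : J (ρ.comp (wh g hc hg)) 1 = J (fun s => ρ (g s)) 1 := by
    ext w
    rw [mem_J, mem_J]
    refine ⟨fun q s => ?_, fun q a => ?_⟩
    · have := q (.ofAdd (Pi.single s 1))
      rw [← wd_single g s]
      exact this
    · have q1 : ∀ s (n : ℕ), (ρ (g s) ^ n) w = w := fun s n => by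
        induction n with
        | zero => rfl
        | succ n ih => rw [pow_succ, Module.End.mul_apply, q s, Pi.one_apply, one_smul, ih]
      change ρ (wd g a.toAdd) w = (1 : k) • w
      simp only [wd, map_mul, map_pow, Module.End.mul_apply, q1, one_smul]
  have c : Fintype.card (Multiplicative (Fin 6 → ZMod 3)) = 729 := by simp
  rw [e, c] at h
  have e2 : ∑ a : Multiplicative (Fin 6 → ZMod 3), finrank k (Eg ((ρ.comp (wh g hc hg)) a) 1) =
      ∑ a : Fin 6 → ZMod 3, finrank k (Eg (ρ (wd g a)) 1) :=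
    Fintype.sum_equiv Multiplicative.toAdd _ _ fun _ => rfl
  rw [e2] at h
  omega

theorem lift3 [Finite G] {α : Type} [Fintype α] [DecidableEq α] (φ : G →* alternatingGroup (Fin r))
    (hφ : Function.Surjective φ) (hK : ¬ 3 ∣ Nat.card φ.ker) (hr : Fintype.card α ≤ r) (P : Subgroup (Perm α))
    (hP : ∀ p ∈ P, p ^ 9 = 1) : ∃ s : P →* G, Function.Injective s ∧
      (∀ g : Perm α, sign g = 1 → (∀ p ∈ P, g * p * g⁻¹ ∈ P) →
        ∃ a : G, ∀ p q : P, g * p * g⁻¹ = q → a * s p * a⁻¹ = s q) ∧
      ∀ p q : P, p ^ 3 = 1 → AC p.1 q.1 → IsConj (s p) (s q) := by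
  classical
  obtain ⟨e⟩ : Nonempty (α ↪ Fin r) := Function.Embedding.nonempty_of_card_le (by simpa using hr)
  let ι := viaEmbeddingHom e
  have sg : ∀ σ, sign (ι σ) = sign σ := fun σ => by
    rw [viaEmbeddingHom_apply, viaEmbedding]
    convert sign_extendDomain σ _
  let π : G →* Perm (Fin r) := (alternatingGroup (Fin r)).subtype.comp φ
  have hπ : ∀ g, sign g = 1 → ∃ a, π a = ι g := fun g hg => by
    obtain ⟨a, ha⟩ := hφ ⟨ι g, by rw [mem_alternatingGroup, sg, hg]⟩
    exact ⟨a, congrArg Subtype.val ha⟩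
  have ev : ∀ p ∈ P, sign p = 1 := fun p hp => by
    have h1 : sign p ^ 9 = 1 := by rw [← map_pow, hP p hp, map_one]
    rcases Int.units_eq_one_or (sign p) with h | h
    · exact h
    · rw [h] at h1
      exact absurd h1 (by decide)
  have hV : IsPGroup 3 (P.map ι) := IsPGroup.map (fun p => ⟨2, Subtype.ext (hP p p.2)⟩) ι
  obtain ⟨Q, -, hQ, q1, q2, -⟩ := H28.Fa.fr π ((Subgroup.normalizer (P.map ι : Set (Perm (Fin r)))).comap π) hV
    (fun m hm => hm) (by
      rintro _ ⟨p, hp, rfl⟩
      obtain ⟨a, ha⟩ := hπ p (ev p hp)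
      exact ⟨a, show π a ∈ Subgroup.normalizer _ from ha ▸ Subgroup.le_normalizer ⟨p, hp, rfl⟩, ha⟩)
  have inj : ∀ x ∈ Q, ∀ y ∈ Q, π x = π y → x = y := fun x hx y hy h => by
    obtain ⟨n, hn⟩ := hQ ⟨x * y⁻¹, mul_mem hx (inv_mem hy)⟩
    refine mul_inv_eq_one.1 (injP φ hK (n := n) (congrArg Subtype.val hn) (Subtype.ext ?_))
    change π (x * y⁻¹) = 1
    rw [map_mul, map_inv, h, mul_inv_cancel]
  have h2 : ∀ p : P, ∃ x ∈ Q, π x = ι p := fun p => q1.ge ⟨p, p.2, rfl⟩
  choose t ht1 ht2 using h2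
  let s : P →* G := MonoidHom.mk' t fun a b => inj _ (ht1 _) _ (mul_mem (ht1 _) (ht1 _)) (by
    rw [map_mul, ht2, ht2, ht2, ← map_mul]; rfl)
  refine ⟨s, fun a b h => Subtype.ext (viaEmbeddingHom_injective e ?_), fun g hg h => ?_, ?_⟩
  · exact (ht2 a).symm.trans ((congrArg π h).trans (ht2 b))
  · obtain ⟨a, ha⟩ := hπ g hg
    obtain ⟨b, ⟨hb, -⟩, eb⟩ := q2 ⟨a, show π a ∈ Subgroup.normalizer _ from ha ▸ Subgroup.mem_normalizer_fintype (by
      rintro _ ⟨p, hp, rfl⟩
      exact ⟨_, h p hp, by rw [map_mul, map_mul, map_inv]⟩), ha⟩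
    refine ⟨b, fun p q hq => inj _ ((Subgroup.mem_normalizer_iff.1 hb _).1 (ht1 p)) _ (ht1 q) ?_⟩
    change π (b * t p * b⁻¹) = π (t q)
    rw [map_mul, map_mul, map_inv, eb, ht2, ht2, ← hq, map_mul, map_mul, map_inv]
  · rintro p q hp ⟨g, hg, e⟩
    obtain ⟨a, ha⟩ := hπ g hg
    have hq : q ^ 3 = 1 := Subtype.ext (by
      change q.1 ^ 3 = 1
      rw [← e, conj_pow, show p.1 ^ 3 = 1 from congrArg Subtype.val hp, mul_one, mul_inv_cancel])
    refine (isConj_iff.2 ⟨a, rfl⟩).trans (liftConj (l := 3) φ hK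
      (by rw [conj_pow, ← map_pow, hp, map_one, mul_one, mul_inv_cancel])
      (by rw [← map_pow, hq, map_one]) (Subtype.ext ?_))
    change π (a * t p * a⁻¹) = π (t q)
    rw [map_mul, map_mul, map_inv, ha, ht2, ht2, ← e, map_mul, map_mul, map_inv]

end H22.Cn
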