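import Cfsg.Agent.H22.Cn2

/-!
# A `3`-subgroup of the symmetric group on eighteen points and its weight enumerators
-/

set_option autoImplicit false

open Module Equiv Equiv.Perm

namespace H22.Cn

/-- eighteen points in six blocks -/
abbrev Om := Fin 6 × ZMod 3

/-- first block `3`-cycle -/
def c1 : Perm (Fin 6) := ⟨![1, 2, 0, 3, 4, 5], ![2, 0, 1, 3, 4, 5], by decide, by decide⟩
/-- second block `3`-cycle -/
def c2 : Perm (Fin 6) := ⟨![0, 1, 2, 4, 5, 3], ![0, 1, 2, 5, 3, 4], by decide, by decide⟩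
/-- block permutation exchanging the two cycles -/
def cf : Perm (Fin 6) := ⟨![3, 4, 5, 0, 2, 1], ![3, 5, 4, 0, 1, 2], by decide, by decide⟩
/-- block permutations -/
def bl (π : Perm (Fin 6)) : Perm Om := prodCongrLeft fun _ => π
/-- inversion in all blocks -/
def ng : Perm Om := prodCongrRight fun _ => Equiv.neg (ZMod 3)
/-- the block group -/
def bA (i j : Fin 3) : Perm (Fin 6) := c1 ^ i.val * c2 ^ j.val

theorem bA_mul : ∀ i j i' j', bA i j * bA i' j' = bA (i + i') (j + j') := by decide +kernel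
theorem bA_inv : ∀ i j, (bA i j)⁻¹ = bA (-i) (-j) := by decide +kernel
theorem bA_3 : ∀ i j s, bA i j (bA i j (bA i j s)) = s := by decide +kernel
theorem bA_f : ∀ i j s, cf (bA i j (cf⁻¹ s)) = bA (-j) i s := by decide +kernel

/-- the `3`-group -/
def P3 : Subgroup (Perm Om) where
  carrier := {σ | ∃ i j : Fin 3, ∃ a : Fin 6 → ZMod 3, ∀ s t, σ (s, t) = (bA i j s, a s + t)}
  one_mem' := ⟨0, 0, 0, fun s t => Prod.ext rfl (zero_add t).symm⟩
  mul_mem' := by
    rintro σ σ' ⟨i, j, a, h⟩ ⟨i', j', a', h'⟩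
    refine ⟨i + i', j + j', fun s => a (bA i' j' s) + a' s, fun s t => ?_⟩
    rw [Perm.mul_apply, h', h, ← bA_mul, add_assoc]; rfl
  inv_mem' := by
    rintro σ ⟨i, j, a, h⟩
    refine ⟨-i, -j, fun s => -a (bA (-i) (-j) s), fun s t => ?_⟩
    rw [Perm.inv_eq_iff_eq, h, ← bA_inv, add_neg_cancel_left]
    simp

theorem P3_9 : ∀ p ∈ P3, p ^ 9 = 1 := by
  rintro σ ⟨i, j, a, h⟩
  have h3 : ∀ s t, (σ ^ 3) (s, t) = (s, (a (bA i j (bA i j s)) + a (bA i j s) + a s) + t) := fun s t => by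
    rw [pow_three, Perm.mul_apply, Perm.mul_apply, h, h, h, bA_3, add_assoc, add_assoc]
  refine Equiv.ext fun ⟨s, t⟩ => ?_
  rw [show 9 = 3 * 3 from rfl, pow_mul, pow_three, Perm.mul_apply, Perm.mul_apply, h3, h3, h3]
  have e : ∀ b t : ZMod 3, b + (b + (b + t)) = t := by decide
  rw [e]; rfl

theorem tl_mem (x : Multiplicative (Fin 6 → ZMod 3)) : tl 3 6 x ∈ P3 := ⟨0, 0, x.toAdd, fun _ _ => rfl⟩
theorem u_mem : bl c1 ∈ P3 := ⟨1, 0, 0, by decide +kernel⟩
theorem v_mem : bl c2 ∈ P3 := ⟨0, 1, 0, by decide +kernel⟩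

theorem f_nor : ∀ p ∈ P3, bl cf * p * (bl cf)⁻¹ ∈ P3 := by
  rintro σ ⟨i, j, a, h⟩
  refine ⟨-j, i, fun s => a (cf⁻¹ s), fun s t => ?_⟩
  change bl cf (σ (cf⁻¹ s, t)) = _
  rw [h, ← bA_f]; rfl

theorem i_nor : ∀ p ∈ P3, ng * p * ng⁻¹ ∈ P3 := by
  rintro σ ⟨i, j, a, h⟩
  refine ⟨i, j, fun s => -a s, fun s t => ?_⟩
  change ng (σ (s, -t)) = _
  rw [h]
  change (bA i j s, -(a s + -t)) = _
  rw [neg_add, neg_neg]

theorem f_sign : sign (bl cf) = 1 := by
  rw [bl, sign_prodCongrLeft, Finset.prod_const, show sign cf = 1 by decide +kernel, one_pow]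

theorem i_sign : sign ng = 1 := by
  rw [ng, sign_prodCongrRight, Finset.prod_const, Finset.card_univ, Fintype.card_fin, show 6 = 2 * 3 from rfl,
    pow_mul, Int.units_sq, one_pow]

/-- class representatives -/
def tau (n : ℕ) : Multiplicative (Fin 6 → ZMod 3) := .ofAdd fun j => if j.val < n then 1 else 0

/-- number of `3`-cycles -/
def kap (q : Perm Om) : ℕ := q.support.card / 3

theorem tau_sup : ∀ n : Fin 7, (tl 3 6 (tau n.val)).support.card = 3 * n.val := by decide +kernel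

theorem kap_lt (q : Perm Om) : kap q < 7 := by
  have := Finset.card_le_univ q.support
  rw [show Fintype.card Om = 18 from rfl] at this
  unfold kap
  omega

theorem ac_tau (q : Perm Om) (h : q ^ 3 = 1) : AC q (tl 3 6 (tau (kap q))) := by
  have c : ∀ q : Perm Om, q ^ 3 = 1 → q.support.card = 3 * q.cycleType.card := fun q h => by
    rw [← sum_cycleType, cycleType_of_pow_prime_eq_one h, Multiset.sum_replicate, Multiset.card_replicate, smul_eq_mul,
      mul_comm]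
  have h' : tl 3 6 (tau (kap q)) ^ 3 = 1 := by rw [← map_pow, pow_l, map_one]
  have e1 := tau_sup ⟨_, kap_lt q⟩
  have e2 := c q h
  have e3 := c _ h'
  have e4 : q.cycleType.card = (tl 3 6 (tau (kap q))).cycleType.card := by
    have : kap q = q.support.card / 3 := rfl
    dsimp only at e1
    omega
  obtain ⟨g, hg⟩ := isConj_iff.1 (isConj_of_cycleType_eq (σ := q) (τ := tl 3 6 (tau (kap q))) (by
    rw [cycleType_of_pow_prime_eq_one h, cycleType_of_pow_prime_eq_one h', e4]))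
  obtain ⟨d, hd, hd'⟩ : ∃ d : Perm Om, sign d = -1 ∧ d * tl 3 6 (tau (kap q)) = tl 3 6 (tau (kap q)) * d := by
    by_cases e : 5 < kap q
    · exact odd1 (by decide) _ 0 1 (by decide) ((if_pos (by change 0 < _; omega)).trans (if_pos (by change 1 < _; omega)).symm)
    · exact odd0 _ 5 (if_neg e)
  exact AC.of (mul_inv_eq_iff_eq_mul.1 hg) hd hd'

theorem enum {X : Type*} [Fintype X] (c : X → ℕ) (hc : ∀ a, c a < 7) (hX : Fintype.card X < 1000) (N : Fin 7 → ℕ)
    (hN : ∀ i, N i < 1000) (h : ∑ a, 1000 ^ c a = ∑ i, N i * 1000 ^ i.val) (n : ℕ → ℕ) :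
    ∑ a, n (c a) = ∑ i, N i * n i.val := by
  classical
  have key : ∀ n : ℕ → ℕ, ∑ a, n (c a) = ∑ i : Fin 7, (Finset.univ.filter fun a => c a = i.val).card * n i.val := fun n => by
    rw [← Finset.sum_fiberwise Finset.univ (fun a => (⟨c a, hc a⟩ : Fin 7))]
    refine Finset.sum_congr rfl fun i _ => ?_
    rw [Finset.sum_congr rfl (g := fun _ => n i.val) fun a ha => by rw [← (Finset.mem_filter.1 ha).2], Finset.sum_const,
      smul_eq_mul]
    simp only [Fin.ext_iff]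
  have h1 := key (1000 ^ ·)
  have h2 : ∀ i : Fin 7, (Finset.univ.filter fun a => c a = i.val).card < 1000 := fun i =>
    (Finset.card_le_univ _).trans_lt hX
  rw [h] at h1
  rw [key]
  set M : Fin 7 → ℕ := fun i => (Finset.univ.filter fun a => c a = i.val).card with hM
  have h3 : M = N := by
    change ∑ i, N i * 1000 ^ i.val = ∑ i, M i * 1000 ^ i.val at h1
    replace h2 : ∀ i, M i < 1000 := h2
    clear_value M
    simp only [Fin.sum_univ_seven] at h1
    have a0 := h2 0; have a1 := h2 1; have a2 := h2 2; have a3 := h2 3; have a4 := h2 4; have a5 := h2 5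
    have b0 := hN 0; have b1 := hN 1; have b2 := hN 2; have b3 := hN 3; have b4 := hN 4; have b5 := hN 5
    norm_num at h1
    have : M 0 = N 0 ∧ M 1 = N 1 ∧ M 2 = N 2 ∧ M 3 = N 3 ∧ M 4 = N 4 ∧ M 5 = N 5 ∧ M 6 = N 6 := by omega
    obtain ⟨e0, e1, e2, e3, e4, e5, e6⟩ := this
    funext i
    fin_cases i <;> assumption
  change ∑ i, M i * n i.val = _
  rw [h3]

/-- block `3`-cycles -/
def X (s : Fin 6) : Perm Om := tl 3 6 (.ofAdd (Pi.single s 1))

/-- generators -/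
def gB : Fin 6 → Perm Om := ![bl c1, X 0 * X 1 * X 2, X 4 * (X 3)⁻¹, X 5 * (X 3)⁻¹, X 3, 1]
/-- generators -/
def gS : Fin 6 → Perm Om := ![bl c1, X 0 * X 1 * X 2, X 4 * (X 3)⁻¹, X 5 * (X 3)⁻¹, 1, 1]

theorem enE : ∑ a, 1000 ^ kap (wd X a) = ∑ i : Fin 7, ![1, 12, 60, 160, 240, 192, 64] i * 1000 ^ i.val := by
  decide +kernel

theorem enK : ∑ a, 1000 ^ kap (wd (fun s => X s * (X 0)⁻¹) a) =
    ∑ i : Fin 7, ![3, 0, 90, 120, 270, 180, 66] i * 1000 ^ i.val := by
  decide +kernel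

theorem enB : ∑ a, 1000 ^ kap (wd gB a) = ∑ i : Fin 7, ![3, 18, 36, 48, 144, 288, 192] i * 1000 ^ i.val := by
  decide +kernel

theorem enS : ∑ a, 1000 ^ kap (wd gS a) = ∑ i : Fin 7, ![9, 0, 54, 90, 0, 432, 144] i * 1000 ^ i.val := by
  decide +kernel

theorem X_mem (s : Fin 6) : X s ∈ P3 := tl_mem _
theorem X_comm : ∀ s t, X s * X t = X t * X s := fun s t => by rw [X, X, ← map_mul, mul_comm, map_mul]
theorem X_3 : ∀ s, X s ^ 3 = 1 := fun s => by rw [X, ← map_pow, pow_l, map_one]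
theorem gB_comm : ∀ s t, gB s * gB t = gB t * gB s := by decide +kernel
theorem gB_3 : ∀ s, gB s ^ 3 = 1 := by decide +kernel
theorem gS_comm : ∀ s t, gS s * gS t = gS t * gS s := by decide +kernel
theorem gS_3 : ∀ s, gS s ^ 3 = 1 := by decide +kernel
theorem v_3 : bl c2 ^ 3 = 1 := by decide +kernel
theorem uv : bl c1 * bl c2 = bl c2 * bl c1 := by decide +kernel
theorem uX : ∀ s, bl c1 * X s * (bl c1)⁻¹ = X (c1 s) := by decide +kernel
theorem vX : ∀ s, bl c2 * X s * (bl c2)⁻¹ = X (c2 s) := by decide +kernel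
theorem fX : ∀ s, bl cf * X s * (bl cf)⁻¹ = X (cf s) := by decide +kernel
theorem fu : bl cf * bl c1 * (bl cf)⁻¹ = bl c2 := by decide +kernel
theorem fv : bl cf * bl c2 * (bl cf)⁻¹ = (bl c1)⁻¹ := by decide +kernel
theorem iX : ∀ s, ng * X s * ng⁻¹ = (X s)⁻¹ := by decide +kernel
theorem iu : ng * bl c1 * ng⁻¹ = bl c1 := by decide +kernel
theorem iv : ng * bl c2 * ng⁻¹ = bl c2 := by decide +kernel
theorem tau_ne : ∀ n : Fin 6, tl 3 6 (tau (n.val + 1)) ≠ 1 := by decide +kernel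

theorem nums : ∀ a ∈ [80, 86, 92, 134], ∀ b ∈ [80, 86, 92, 134], ∀ c ∈ [80, 86, 92, 134], ∀ d ∈ [80, 86, 92, 134],
    ∀ e ∈ [80, 86, 92, 134], ∀ f ∈ [80, 86, 92, 134],
    (248 + 12 * a + 60 * b + 160 * c + 240 * d + 192 * e + 64 * f) % 243 = 0 →
    (3 * 248 + 90 * b + 120 * c + 270 * d + 180 * e + 66 * f) % 243 = 0 →
    (3 * 248 + 18 * a + 36 * b + 48 * c + 144 * d + 288 * e + 192 * f) % 243 = 0 →
    (9 * 248 + 54 * b + 90 * c + 432 * e + 144 * f) % 243 = 0 →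
    3 * 248 + 18 * a + 36 * b + 48 * c + 144 * d + 288 * e + 192 * f ≤ 9 * 248 + 54 * b + 90 * c + 432 * e + 144 * f →
    a = 92 ∧ b = 134 ∧ c = 86 ∧ d = 92 ∧ e = 80 ∧ f = 86 := by decide +kernel

end H22.Cn
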