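import Cfsg.Agent.H22.Cn3

/-!
# The `3`-local configuration in a `248`-dimensional representation
-/

set_option autoImplicit false

open Module Equiv Equiv.Perm

namespace H22.Cn
open H28.Al H28.Ea

universe u v

theorem K_comm : ∀ a b, X a * (X 0)⁻¹ * (X b * (X 0)⁻¹) = X b * (X 0)⁻¹ * (X a * (X 0)⁻¹) := by decide +kernel
theorem K_3 : ∀ a, (X a * (X 0)⁻¹) ^ 3 = 1 := by decide +kernel

theorem nums2 (n0 n1 n2 n3 n4 n5 n6 a b c d : ℕ) (h0 : n0 = 248) (a1 : n1 ∈ [80, 86, 92, 134]) (a2 : n2 ∈ [80, 86, 92, 134])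
    (a3 : n3 ∈ [80, 86, 92, 134]) (a4 : n4 ∈ [80, 86, 92, 134]) (a5 : n5 ∈ [80, 86, 92, 134]) (a6 : n6 ∈ [80, 86, 92, 134])
    (kE : 3 * (1 * n0 + 12 * n1 + 60 * n2 + 160 * n3 + 240 * n4 + 192 * n5 + 64 * n6) = 729 * (248 + 2 * a))
    (kK : 3 * (3 * n0 + 0 * n1 + 90 * n2 + 120 * n3 + 270 * n4 + 180 * n5 + 66 * n6) = 729 * (248 + 2 * b))
    (kB : 3 * (3 * n0 + 18 * n1 + 36 * n2 + 48 * n3 + 144 * n4 + 288 * n5 + 192 * n6) = 729 * (248 + 2 * c))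
    (kS : 3 * (9 * n0 + 0 * n1 + 54 * n2 + 90 * n3 + 0 * n4 + 432 * n5 + 144 * n6) = 729 * (248 + 2 * d)) (le : c ≤ d) :
    a = 12 ∧ b = 16 ∧ c = d := by
  have z : ∀ x y : ℕ, x = 243 * y → x % 243 = 0 := fun x y e => e ▸ Nat.mul_mod_right _ _
  have b1 : 248 + 12 * n1 + 60 * n2 + 160 * n3 + 240 * n4 + 192 * n5 + 64 * n6 = 243 * (248 + 2 * a) := by
    clear * - kE h0; omega
  have b2 : 3 * 248 + 90 * n2 + 120 * n3 + 270 * n4 + 180 * n5 + 66 * n6 = 243 * (248 + 2 * b) := by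
    clear * - kK h0; omega
  have b3 : 3 * 248 + 18 * n1 + 36 * n2 + 48 * n3 + 144 * n4 + 288 * n5 + 192 * n6 = 243 * (248 + 2 * c) := by
    clear * - kB h0; omega
  have b4 : 9 * 248 + 54 * n2 + 90 * n3 + 432 * n5 + 144 * n6 = 243 * (248 + 2 * d) := by
    clear * - kS h0; omega
  obtain ⟨m1, m2, m3, m4, m5, m6⟩ := nums _ a1 _ a2 _ a3 _ a4 _ a5 _ a6 (z _ _ b1) (z _ _ b2) (z _ _ b3) (z _ _ b4)
    (by rw [b3, b4]; clear * - le; omega)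
  subst m1 m2 m3 m4 m5 m6
  clear * - b1 b2 b3 b4
  omega

theorem nums' (n : ℕ → ℕ) (n0 : n 0 = 248) (n1 : ∀ j : Fin 6, n (j.val + 1) ∈ [80, 86, 92, 134]) {a b c d : ℕ}
    (kE : 3 * ∑ j : Fin 7, ![1, 12, 60, 160, 240, 192, 64] j * n j.val = 729 * (248 + 2 * a))
    (kK : 3 * ∑ j : Fin 7, ![3, 0, 90, 120, 270, 180, 66] j * n j.val = 729 * (248 + 2 * b))
    (kB : 3 * ∑ j : Fin 7, ![3, 18, 36, 48, 144, 288, 192] j * n j.val = 729 * (248 + 2 * c))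
    (kS : 3 * ∑ j : Fin 7, ![9, 0, 54, 90, 0, 432, 144] j * n j.val = 729 * (248 + 2 * d)) (le : c ≤ d) :
    a = 12 ∧ b = 16 ∧ c = d := by
  have e : ∀ a b c d e f g : ℕ, ∑ j : Fin 7, ![a, b, c, d, e, f, g] j * n j.val =
      a * n 0 + b * n 1 + c * n 2 + d * n 3 + e * n 4 + f * n 5 + g * n 6 := fun a b c d e f g => by
    rw [Fin.sum_univ_seven]; rfl
  rw [e] at kE kK kB kS
  exact nums2 (n 0) (n 1) (n 2) (n 3) (n 4) (n 5) (n 6) a b c d n0 (n1 0) (n1 1) (n1 2) (n1 3) (n1 4) (n1 5) kE kK kB kS le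

theorem val6 {H : Type*} [Group H] {P : Subgroup H} (a b c d e f : P) (j : Fin 6) :
    (![a, b, c, d, e, f] j).1 = ![a.1, b.1, c.1, d.1, e.1, f.1] j := by
  fin_cases j <;> rfl

variable {k V : Type u} [Field k] [AddCommGroup V] [Module k V]

theorem J6 {H : Type*} (F : H → End k V) (a b c d e f : H) (w : V) : w ∈ J (fun j => F (![a, b, c, d, e, f] j)) 1 ↔
    F a w = w ∧ F b w = w ∧ F c w = w ∧ F d w = w ∧ F e w = w ∧ F f w = w := by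
  refine ⟨fun h => ⟨(h 0).trans (one_smul k w), (h 1).trans (one_smul k w), (h 2).trans (one_smul k w),
    (h 3).trans (one_smul k w), (h 4).trans (one_smul k w), (h 5).trans (one_smul k w)⟩, fun ⟨h0, h1, h2, h3, h4, h5⟩ j => ?_⟩
  fin_cases j
  exacts [h0.trans (one_smul k w).symm, h1.trans (one_smul k w).symm, h2.trans (one_smul k w).symm,
    h3.trans (one_smul k w).symm, h4.trans (one_smul k w).symm, h5.trans (one_smul k w).symm]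

variable [IsAlgClosed k] [FiniteDimensional k V] {G : Type v} [Group G] {r : ℕ}

/-- class representatives in the `3`-group -/
def TT (n : ℕ) : P3 := ⟨_, tl_mem (tau n)⟩

theorem key6 (ρ : G →* Module.End k V) (h3 : (3 : k) ≠ 0) (s : P3 →* G)
    (hC : ∀ p q : P3, p ^ 3 = 1 → AC p.1 q.1 → IsConj (s p) (s q)) (g : Fin 6 → P3) (g' : Fin 6 → Perm Om)
    (N : Fin 7 → ℕ) (e : ∀ j, (g j).1 = g' j) (hc : ∀ a b, g' a * g' b = g' b * g' a) (hg : ∀ a, g' a ^ 3 = 1)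
    (hN : ∀ j, N j < 1000) (hE : ∑ a, 1000 ^ kap (wd g' a) = ∑ j, N j * 1000 ^ j.val) :
    3 * ∑ j, N j * (fun j => finrank k (Eg (ρ (s (TT j))) 1)) j.val =
      729 * (finrank k V + 2 * finrank k (J (fun j => ρ (s (g j))) 1)) := by
  obtain rfl : (fun j => (g j).1) = g' := funext e
  have hc' : ∀ a b, g a * g b = g b * g a := fun a b => Subtype.ext (hc a b)
  have hg' : ∀ a, g a ^ 3 = 1 := fun a => Subtype.ext (hg a)
  have c : Fintype.card (Fin 6 → ZMod 3) < 1000 := by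
    rw [Fintype.card_fun, ZMod.card, Fintype.card_fin]; norm_num
  rw [← enum _ (fun a => kap_lt _) c N hN hE fun j => finrank k (Eg (ρ (s (TT j))) 1), ← cnt6 ρ h3 (fun j => s (g j))
    (fun a b => by rw [← map_mul, hc', map_mul]) fun a => by rw [← map_pow, hg', map_one]]
  refine congrArg (HMul.hMul 3) (Finset.sum_congr rfl fun a _ => ?_)
  have q3 : wd g a ^ 3 = 1 := by
    change wh g hc' hg' (.ofAdd a) ^ 3 = 1
    rw [← map_pow, pow_l, map_one]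
  have q4 : (wd g a).1 = wd (fun j => (g j).1) a := wd_map P3.subtype g a
  obtain ⟨c, hc⟩ := isConj_iff.1 (hC (wd g a) (TT (kap (wd g a).1)) q3 (ac_tau _ (congrArg Subtype.val q3)))
  rw [← wd_map, ← q4, ← hc, rk_conj]

theorem c8 [Finite G] (φ : G →* alternatingGroup (Fin r)) (hφ : Function.Surjective φ) (ρ : G →* Module.End k V)
    (hV : finrank k V = 248) (hr : 18 ≤ r) (h3 : (3 : k) ≠ 0) (hK : ¬ 3 ∣ Nat.card φ.ker)
    (h : ∀ y : G, orderOf y = 3 → finrank k (Eg (ρ y) 1) ∈ [80, 86, 92, 134]) :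
    ∃ (x : Fin 6 → G) (u v f i : G) (a b c : Equiv.Perm (Fin 6)), (∀ s t, x s * x t = x t * x s) ∧ (∀ s, x s ^ 3 = 1) ∧
      u ^ 3 = 1 ∧ v ^ 3 = 1 ∧ u * v = v * u ∧ (∀ s, u * x s * u⁻¹ = x (a s)) ∧ (∀ s, v * x s * v⁻¹ = x (b s)) ∧
      (∀ s, f * x s * f⁻¹ = x (c s)) ∧ f * u * f⁻¹ = v ∧ f * v * f⁻¹ = u⁻¹ ∧ (∀ s, i * x s * i⁻¹ = (x s)⁻¹) ∧
      i * u * i⁻¹ = u ∧ i * v * i⁻¹ = v ∧ finrank k (J (fun s => ρ (x s)) 1) = 12 ∧
      finrank k (J (fun s => ρ (x s * (x 0)⁻¹)) 1) = 16 ∧ ∀ w, ρ u w = w → ρ (x 0 * x 1 * x 2) w = w →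
        ρ (x 4 * (x 3)⁻¹) w = w → ρ (x 5 * (x 3)⁻¹) w = w → ρ (x 3) w = w := by
  have c : Fintype.card Om = 18 := by rw [Fintype.card_prod, ZMod.card, Fintype.card_fin]
  obtain ⟨s, hs, hN, hC⟩ := lift3 φ hφ hK (α := Om) (c ▸ hr) P3 P3_9
  obtain ⟨f, hf⟩ := hN _ f_sign f_nor
  obtain ⟨i, hi⟩ := hN _ i_sign i_nor
  obtain ⟨Y, hY⟩ : ∃ Y : Fin 6 → P3, ∀ j, (Y j).1 = X j := ⟨fun j => ⟨X j, X_mem j⟩, fun _ => rfl⟩
  obtain ⟨U, hU⟩ : ∃ U : P3, U.1 = bl c1 := ⟨⟨_, u_mem⟩, rfl⟩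
  obtain ⟨W, hW⟩ : ∃ W : P3, W.1 = bl c2 := ⟨⟨_, v_mem⟩, rfl⟩
  have n0 : finrank k (Eg (ρ (s (TT 0))) 1) = 248 := by
    have : TT 0 = 1 := Subtype.ext (map_one (tl 3 6))
    rw [this, map_one, map_one, rk_one, hV]
  have n1 : ∀ j : Fin 6, finrank k (Eg (ρ (s (TT (j.val + 1)))) 1) ∈ [80, 86, 92, 134] := fun j => h _ (orderOf_eq_prime (by
    rw [← map_pow, show TT (j.val + 1) ^ 3 = 1 from Subtype.ext (by
      change tl 3 6 _ ^ 3 = 1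
      rw [← map_pow, pow_l, map_one]), map_one])
    fun q => tau_ne j (congrArg Subtype.val (hs (q.trans (map_one s).symm))))
  have kE := key6 ρ h3 s hC Y X _ hY X_comm X_3 (by decide) enE
  have kK := key6 ρ h3 s hC (fun j => Y j * (Y 0)⁻¹) (fun s => X s * (X 0)⁻¹) _
    (fun j => by rw [Subgroup.coe_mul, Subgroup.coe_inv, hY, hY]) K_comm K_3 (by decide) enK
  have kB := key6 ρ h3 s hC ![U, Y 0 * Y 1 * Y 2, Y 4 * (Y 3)⁻¹, Y 5 * (Y 3)⁻¹, Y 3, 1] gB _ (fun j => by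
    rw [val6]
    simp only [Subgroup.coe_mul, Subgroup.coe_inv, Subgroup.coe_one, hY, hU, gB]) gB_comm gB_3 (by decide) enB
  have kS := key6 ρ h3 s hC ![U, Y 0 * Y 1 * Y 2, Y 4 * (Y 3)⁻¹, Y 5 * (Y 3)⁻¹, 1, 1] gS _ (fun j => by
    rw [val6]
    simp only [Subgroup.coe_mul, Subgroup.coe_inv, Subgroup.coe_one, hY, hU, gS]) gS_comm gS_3 (by decide) enS
  have le : J (fun j => ρ (s (![U, Y 0 * Y 1 * Y 2, Y 4 * (Y 3)⁻¹, Y 5 * (Y 3)⁻¹, Y 3, 1] j))) 1 ≤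
      J (fun j => ρ (s (![U, Y 0 * Y 1 * Y 2, Y 4 * (Y 3)⁻¹, Y 5 * (Y 3)⁻¹, 1, 1] j))) 1 := fun w hw => by
    obtain ⟨w0, w1, w2, w3, -, w5⟩ := (J6 (fun p => ρ (s p)) _ _ _ _ _ _ w).1 hw
    exact (J6 (fun p => ρ (s p)) _ _ _ _ _ _ w).2 ⟨w0, w1, w2, w3, w5, w5⟩
  rw [hV] at kE kK kB kS
  obtain ⟨m1, m2, m3⟩ := nums' (fun j => finrank k (Eg (ρ (s (TT j))) 1)) n0 n1 kE kK kB kS (Submodule.finrank_mono le)
  have eq := Submodule.eq_of_le_of_finrank_eq le m3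
  have cj : ∀ a b c : P3, a.1 * b.1 * a.1⁻¹ = c.1 → s a * s b * (s a)⁻¹ = s c := fun a b c e => by
    rw [← map_inv, ← map_mul, ← map_mul]
    exact congrArg s (Subtype.ext e)
  have cm : ∀ a b : P3, a.1 * b.1 = b.1 * a.1 → s a * s b = s b * s a := fun a b e => by
    rw [← map_mul, ← map_mul]
    exact congrArg s (Subtype.ext e)
  have c3 : ∀ a : P3, a.1 ^ 3 = 1 → s a ^ 3 = 1 := fun a e => by
    rw [← map_pow, ← map_one s]
    exact congrArg s (Subtype.ext e)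
  have mi : ∀ a b : P3, s a * (s b)⁻¹ = s (a * b⁻¹) := fun a b => by rw [map_mul, map_inv]
  refine ⟨fun j => s (Y j), s U, s W, f, i, c1, c2, cf, fun a b => cm _ _ (by rw [hY, hY, X_comm]),
    fun a => c3 _ (by rw [hY, X_3]), c3 _ (by rw [hU]; exact gB_3 0), c3 _ (by rw [hW, v_3]), cm _ _ (by rw [hU, hW, uv]),
    fun j => cj _ _ _ (by rw [hU, hY, hY, uX]), fun j => cj _ _ _ (by rw [hW, hY, hY, vX]),
    fun j => hf _ _ (by rw [hY, hY, fX]), hf _ _ (by rw [hU, hW, fu]),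
    (hf W U⁻¹ (by rw [Subgroup.coe_inv, hU, hW, fv])).trans (map_inv s U),
    fun j => (hi (Y j) (Y j)⁻¹ (by rw [Subgroup.coe_inv, hY, iX])).trans (map_inv s _), hi _ _ (by rw [hU, iu]),
    hi _ _ (by rw [hW, iv]), m1, ?_, fun w w1 w2 w3 w4 => ?_⟩
  · rw [show (fun j => ρ (s (Y j) * (s (Y 0))⁻¹)) = fun j => ρ (s (Y j * (Y 0)⁻¹)) from funext fun j => by rw [mi]]
    exact m2
  · rw [mi] at w3 w4
    rw [← map_mul, ← map_mul] at w2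
    have o : ρ (s 1) w = w := by rw [map_one, map_one]; rfl
    exact ((J6 (fun p => ρ (s p)) _ _ _ _ _ _ w).1 (eq.ge ((J6 (fun p => ρ (s p)) _ _ _ _ _ _ w).2
      ⟨w1, w2, w3, w4, o, o⟩))).2.2.2.2.1

end H22.Cn
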