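import Mathlib

/-! Covering the `p`-elements of a finite group by proper subgroups needs `p + 1` of them. -/

set_option autoImplicit false
open Subgroup
open scoped Pointwise

namespace H22.Cov
universe u v

/-- the subgroup generated by the `p`-elements of `H` -/
def L {G : Type u} [Group G] (p : ℕ) (H : Subgroup G) : Subgroup G :=
  closure {g : G | g ∈ H ∧ ∃ k : ℕ, orderOf g = p ^ k}

theorem L_le {G : Type u} [Group G] (p : ℕ) (H : Subgroup G) : L p H ≤ H :=
  (closure_le _).2 fun _ h => h.1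

theorem L_mono {G : Type u} [Group G] (p : ℕ) {H K : Subgroup G} (h : H ≤ K) : L p H ≤ L p K :=
  closure_mono fun _ x => ⟨h x.1, x.2⟩

theorem L_L {G : Type u} [Group G] (p : ℕ) (H : Subgroup G) : L p (L p H) = L p H :=
  le_antisymm (L_le _ _) ((closure_le _).2 fun _ h => subset_closure ⟨subset_closure h, h.2⟩)

theorem L_map {G : Type u} [Group G] (p : ℕ) (H : Subgroup G) (e : G ≃* G) (h : L p H = H) :
    L p (H.map e.toMonoidHom) = H.map e.toMonoidHom := by
  refine le_antisymm (L_le _ _) ?_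
  conv_lhs => rw [← h, L, MonoidHom.map_closure]
  refine closure_mono ?_
  rintro _ ⟨x, ⟨hx, k, hk⟩, rfl⟩
  exact ⟨⟨x, hx, rfl⟩, k, by rw [← hk]; exact e.orderOf_eq x⟩

theorem pgrp {G : Type u} [Group G] [Finite G] (p : ℕ) [hp : Fact p.Prime] {ι : Type v} [Fintype ι]
    (K : ι → Subgroup G) (hι : Fintype.card ι ≤ p) (P : Subgroup G) (hP : IsPGroup p P)
    (hcov : ∀ g ∈ P, ∃ i, g ∈ K i) : ∃ i, P ≤ K i := by
  classical
  by_contra! h
  have := Fintype.ofFinite P
  let s : ι → Finset P := fun i => (Finset.univ.filter fun x : P => x ∈ (K i).subgroupOf P).erase 1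
  have h1 : (Finset.univ : Finset P).erase 1 ⊆ Finset.univ.biUnion s := by
    intro x hx
    obtain ⟨i, hi⟩ := hcov x x.2
    exact Finset.mem_biUnion.2 ⟨i, Finset.mem_univ _, Finset.mem_erase.2 ⟨(Finset.mem_erase.1 hx).1,
      Finset.mem_filter.2 ⟨Finset.mem_univ _, hi⟩⟩⟩
  have h2 : ∀ i, p * ((s i).card + 1) ≤ Fintype.card P := by
    intro i
    have e1 : (s i).card + 1 = Nat.card ((K i).subgroupOf P) := by
      rw [Finset.card_erase_add_one (Finset.mem_filter.2 ⟨Finset.mem_univ _, one_mem _⟩), Nat.card_eq_fintype_card,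
        Fintype.card_subtype]
    obtain ⟨n, hn⟩ := hP.index ((K i).subgroupOf P)
    have e2 := ((K i).subgroupOf P).index_mul_card
    rw [e1, ← Nat.card_eq_fintype_card, ← e2, hn]
    refine Nat.mul_le_mul_right _ (Nat.le_self_pow ?_ p)
    rintro rfl
    exact h i (subgroupOf_eq_top.1 (index_eq_one.1 hn))
  have h3 := (Finset.card_le_card h1).trans Finset.card_biUnion_le
  rw [Finset.card_erase_of_mem (Finset.mem_univ _), Finset.card_univ] at h3
  have h4 : ∑ i, p * ((s i).card + 1) ≤ ∑ _i : ι, Fintype.card P := Finset.sum_le_sum fun i _ => h2 i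
  rw [← Finset.mul_sum, Finset.sum_add_distrib, Finset.sum_const, Finset.sum_const, Finset.card_univ, smul_eq_mul,
    smul_eq_mul, mul_one] at h4
  obtain ⟨i0, -⟩ := hcov 1 P.one_mem
  have h5 := h2 i0
  have h6 := hp.out.two_le
  have h7 : 0 < Fintype.card P := Fintype.card_pos
  generalize Fintype.card P = N at *
  generalize Fintype.card ι = c at *
  generalize ∑ i, (s i).card = S at *
  obtain ⟨d, rfl⟩ := Nat.exists_eq_add_of_le hι
  have h8 : N ≤ S + 1 := by omega
  have h9 : c + d ≤ N := by nlinarith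
  rcases Nat.eq_zero_or_pos d with rfl | hd
  · nlinarith
  · nlinarith [Nat.mul_le_mul_left (c + d) h8, Nat.mul_le_mul hd h9, Nat.mul_le_mul_left d h9]

theorem main {G : Type u} [Group G] [Finite G] (p : ℕ) [hp : Fact p.Prime] {ι : Type v} [Fintype ι]
    (K : ι → Subgroup G) (hι : Fintype.card ι ≤ p)
    (hcov : ∀ g : G, (∃ k : ℕ, orderOf g = p ^ k) → ∃ i, g ∈ K i) (H : Subgroup G) :
    L p H = H → ∃ i, H ≤ K i := by
  classical
  induction H using WellFoundedLT.induction with
  | _ H ih =>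
  intro hH
  by_contra! hn
  obtain ⟨P⟩ : Nonempty (Sylow p H) := inferInstance
  let c : ℕ := Nat.card (P : Subgroup H)
  have pe : ∀ {Q : Subgroup G}, IsPGroup p Q → ∀ g ∈ Q, ∃ k : ℕ, orderOf g = p ^ k := by
    intro Q hQ g hg
    obtain ⟨k, hk⟩ := IsPGroup.iff_orderOf.1 hQ ⟨g, hg⟩
    exact ⟨k, by rw [← hk]; exact (orderOf_mk g hg).symm⟩
  let S : Set (Subgroup G) := {A | A < H ∧ L p A = A ∧ ¬ p ∣ A.relIndex H}
  have up : ∀ A : Subgroup G, A ≤ H → L p A = A → ¬ p ∣ A.relIndex H → ∀ i, A ≤ K i →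
      A ≤ L p (K i ⊓ H) ∧ L p (K i ⊓ H) ∈ S := by
    intro A hA h1 h2 i hi
    have h3 : A ≤ L p (K i ⊓ H) := h1.ge.trans (L_mono p (le_inf hi hA))
    refine ⟨h3, lt_of_le_of_ne ((L_le _ _).trans inf_le_right) fun h => hn i ?_, L_L _ _,
      fun h => h2 (h.trans (relIndex_dvd_of_le_left H h3))⟩
    exact h.ge.trans ((L_le _ _).trans inf_le_left)
  have hS : S.Nonempty := by
    have hP : IsPGroup p ((P : Subgroup H).map H.subtype) := P.isPGroup'.map _
    obtain ⟨i, hi⟩ := pgrp p K hι _ hP fun g hg => hcov g (pe hP g hg)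
    refine ⟨_, (up _ (map_subtype_le _) (le_antisymm (L_le _ _) fun g hg => subset_closure ⟨hg, pe hP g hg⟩) ?_ i hi).2⟩
    rw [relIndex, subgroupOf, comap_map_eq_self_of_injective H.subtype_injective]
    exact P.not_dvd_index
  obtain ⟨A, hA, hmax⟩ := Set.exists_max_image S (fun A => Nat.card A) (Set.toFinite S) hS
  obtain ⟨hAH, hAL, hAp⟩ := hA
  let B : Subgroup H := A.subgroupOf H
  have key : ∀ g : H, ∃ i, (MulAut.conj g • B).map H.subtype = L p (K i ⊓ H) := by
    intro g
    have e1 : (MulAut.conj g • B).map H.subtype = A.map (MulAut.conj (g : G)).toMonoidHom := by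
      ext x
      constructor
      · rintro ⟨_, ⟨y, hy, rfl⟩, rfl⟩
        exact ⟨y, hy, rfl⟩
      · rintro ⟨y, hy, rfl⟩
        exact ⟨_, ⟨⟨y, hAH.le hy⟩, hy, rfl⟩, rfl⟩
    have e2 : Nat.card ((MulAut.conj g • B).map H.subtype) = Nat.card A := by
      rw [e1, card_map_of_injective (MulAut.conj (g : G)).injective]
    have e3 : L p ((MulAut.conj g • B).map H.subtype) = (MulAut.conj g • B).map H.subtype := by
      rw [e1]; exact L_map p A _ hAL
    have e4 : (MulAut.conj g • B).map H.subtype < H := by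
      refine lt_of_le_of_ne (map_subtype_le _) fun h => hAH.ne (eq_of_le_of_card_ge hAH.le ?_)
      rw [← e2, h]
    have e5 : ¬ p ∣ ((MulAut.conj g • B).map H.subtype).relIndex H := by
      have a1 := relIndex_mul_relIndex ⊥ _ H bot_le e4.le
      have a2 := relIndex_mul_relIndex ⊥ _ H bot_le hAH.le
      rw [relIndex_bot_left, relIndex_bot_left] at a1 a2
      rw [e2, ← a2] at a1
      rw [Nat.eq_of_mul_eq_mul_left Nat.card_pos a1]
      exact hAp
    obtain ⟨i, hi⟩ := ih _ e4 e3
    obtain ⟨u1, u2⟩ := up _ e4.le e3 e5 i hi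
    exact ⟨i, eq_of_le_of_card_ge u1 (e2 ▸ hmax _ u2)⟩
  choose f hf using key
  let N : Subgroup H := normalizer (B : Set H)
  have hBN : B ≤ N := le_normalizer
  have hNp : ¬ p ∣ N.index := fun h => hAp (h.trans (index_dvd_of_le hBN))
  have hNi : N.index ≤ p := by
    refine le_trans ?_ hι
    rw [index, ← Nat.card_eq_fintype_card]
    refine Nat.card_le_card_of_injective (fun q => f q.out) fun q q' h => ?_
    have h1 : MulAut.conj q.out • B = MulAut.conj q'.out • B :=
      map_injective H.subtype_injective (by rw [hf, hf]; exact congrArg (fun i => L p (K i ⊓ H)) h)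
    rw [← q.out_eq, ← q'.out_eq]
    apply QuotientGroup.eq.2
    apply (conjAct_pointwise_smul_iff (H := B) (g := q.out⁻¹ * q'.out)).1
    change MulAut.conj (q.out⁻¹ * q'.out) • B = B
    rw [map_mul, mul_smul, ← h1, ← mul_smul, ← map_mul, inv_mul_cancel, map_one, one_smul]
  have hlt : N.index < p := lt_of_le_of_ne hNi fun h => hNp (h ▸ dvd_rfl)
  have hc : ¬ p ∣ N.normalCore.index := by
    rw [normalCore_eq_ker, index_ker]
    intro h
    have h1 := h.trans (card_subgroup_dvd_card _)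
    have := Fintype.ofFinite (H ⧸ N)
    rw [Nat.card_perm, hp.out.dvd_factorial] at h1
    exact absurd h1 (not_le.2 hlt)
  have mem : ∀ (M : Subgroup H) [M.Normal], ¬ p ∣ M.index → M = ⊤ := by
    intro M _ hM
    have : H ≤ M.map H.subtype := by
      refine hH.ge.trans ((closure_le _).2 ?_)
      rintro x ⟨hx, k, hk⟩
      refine ⟨⟨x, hx⟩, ?_, rfl⟩
      have a1 : orderOf (QuotientGroup.mk ⟨x, hx⟩ : H ⧸ M) ∣ p ^ k := by
        rw [← hk, ← orderOf_mk x hx]
        exact orderOf_map_dvd (QuotientGroup.mk' M) _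
      have a2 : orderOf (QuotientGroup.mk ⟨x, hx⟩ : H ⧸ M) ∣ M.index := orderOf_dvd_natCard _
      have a3 := Nat.eq_one_of_dvd_coprimes (((Nat.Prime.coprime_iff_not_dvd hp.out).2 hM).pow_left k) a1 a2
      rw [orderOf_eq_one_iff, QuotientGroup.eq_one_iff] at a3
      exact a3
    rw [eq_top_iff]
    intro x _
    obtain ⟨y, hy, e⟩ := this x.2
    rwa [← Subtype.ext e]
  have hN : N = ⊤ := top_le_iff.1 ((mem _ hc).ge.trans (normalCore_le N))
  haveI : B.Normal := normalizer_eq_top_iff.1 hN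
  exact hAH.not_ge (subgroupOf_eq_top.1 (mem B hAp))

end H22.Cov
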