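import Mathlib
import Cfsg.Agent.H22.PGV1

/-!
# The `P(G,V)`-theorem, part 2 (helper22)

`PV p W A K`: minimal module configuration; `PV.case1` (semiregular offenders), the norm map `x ↦ (x a) ^ p`, `PV.star`.
-/

set_option autoImplicit false

open BG Cfsg
open scoped commutatorElement

namespace H22.PGV

universe u

variable {G : Type u} [Group G] [Finite G] {p l : ℕ} {A B H K U W X Y Z : Subgroup G} {a b c g s t x y z : G}

/-- `W` is a minimal `AK`-module on which the quasisimple group `K` acts nontrivially -/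
structure PV (p : ℕ) (W A K : Subgroup G) : Prop where
  hp : p.Prime
  el : IsElementaryAbelian p W
  ael : IsElementaryAbelian p A
  an : A ≤ N_(W)
  kn : K ≤ N_(W)
  qs : IsQuasisimple K
  comm : ∀ a ∈ A, a ∉ N_(K) → cj a K ≤ C_(K)
  nt : ¬ K ≤ C_(W)
  min : ∀ U < W, A ≤ N_(U) → K ≤ N_(U) → K ≤ C_(U)

theorem four_pow (r : ℕ) (h : 3 ≤ r) : r ^ 2 < 4 ^ (r - 1) := by
  induction r, h using Nat.le_induction with
  | base => norm_num
  | succ n hn ih =>
    obtain ⟨m, rfl⟩ : ∃ m, n = m + 1 := ⟨n - 1, by omega⟩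
    simp only [Nat.add_sub_cancel] at ih ⊢
    rw [pow_succ 4]
    nlinarith

namespace PV

variable (h : PV p W A K)
include h

omit [Finite G] in
theorem mem_cj_iff (ha : a ∈ A) (hb : b ∈ A) : b ∈ cj a X ↔ b ∈ X := by
  rw [mem_cj, mul_assoc, mul_comm_of_abelian h.ael.abelian hb ha, inv_mul_cancel_left]

omit [Finite G] in
theorem cj_comm' (ha : a ∈ A) (hb : b ∈ A) : cj a (cj b X) = cj b (cj a X) := by
  rw [cj_cj, cj_cj, mul_comm_of_abelian h.ael.abelian ha hb]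

omit [Finite G] in
theorem conj (ha : a ∈ A) : PV p W A (cj a K) where
  hp := h.hp
  el := h.el
  ael := h.ael
  an := h.an
  kn := cj_le_of_mem h.kn (h.an ha)
  qs := qs_of_equiv h.qs (cjEquiv a K)
  comm := fun b hb hn => by
    rw [← cj_norm, h.mem_cj_iff ha hb] at hn
    rw [h.cj_comm' hb ha, ← cj_cent]
    exact cj_mono a (h.comm b hb hn)
  nt := fun e => h.nt ((cj_le_iff_of_mem_norm (norm_le_norm_cent W (h.an ha))).1 e)
  min := fun U hU h1 h2 => cj_le_of_mem_norm (h.min U hU h1 ((cj_le_iff_of_mem_norm (le_norm _ (h1 ha))).1 h2))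
    (norm_le_norm_cent U (h1 ha))

omit [Finite G] in
theorem nt2 : ¬ K ≤ C_(⁅W, K⁆) := fun e => h.nt (cent_symm (comm_eq_bot.1
  (comm_eq_bot_of_perfect (isQuasisimple_subgroup_iff.1 h.qs).1 (comm_eq_bot.2 (cent_symm e)))))

omit [Finite G] in
theorem exists_nc : ∃ k ∈ K, k ∉ C_(K) := by
  by_contra hn
  push Not at hn
  have := isQuasisimple_subgroup_iff.1 h.qs
  exact this.2.1 (this.1.symm.trans (comm_eq_bot.2 hn))

omit [Finite G] in
theorem absorb1 (hH : K ≤ N_(H)) (hx : x ∈ K) (hc : x ∉ C_(K)) (hz : z ∈ C_(K)) (hm : x * z ∈ H) : K ≤ H :=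
  absorb h.qs hH hm (Subgroup.mul_mem _ (le_norm K hx) (cent_le_norm K hz)) fun e =>
    hc ((Subgroup.mul_mem_cancel_right _ hz).1 e)

omit [Finite G] in
theorem absorb2 (hH : K ≤ N_(H)) (ha : a ∈ A) (hn : a ∉ N_(K)) (hm : a ∈ H) : K ≤ H := by
  obtain ⟨k, hk, hc⟩ := h.exists_nc
  refine h.absorb1 hH hk hc (h.comm a ha hn (conj_mem_cj a (K.inv_mem hk))) ?_
  have := H.mul_mem (conj_mem_of_norm (hH hk) hm) (H.inv_mem hm)
  simpa only [mul_assoc] using this

theorem cw_iff (hb : b ∈ A) : b ∈ C_(W) ↔ b ∈ C_(K) := by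
  constructor
  · intro hw
    by_contra hc
    by_cases hn : b ∈ N_(K)
    · exact h.nt (absorb h.qs (norm_cent h.kn) hw hn hc)
    · exact h.nt (h.absorb2 (norm_cent h.kn) hb hn hw)
  · intro hc
    have hb' := Subgroup.zpowers_le.2 hb
    have hc' := Subgroup.zpowers_le.2 hc
    have h0 : W ≠ ⊥ := fun e => h.nt (e ▸ le_cent_bot)
    have h1 := h.min _ (nil_comm_lt (hb'.trans h.an) (pg_nil h.hp (pg_sup h.el.pg (pg_le h.ael.pg hb') (hb'.trans h.an))) h0)
      (norm_comm h.an (le_norm_of_abelian h.ael.abelian hb')) (norm_comm h.kn (le_norm_of_cent (cent_symm hc')))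
    have h2 := swap3 hc' h1
    by_contra hw
    refine h.nt2 ((h.min (W ⊓ C_[b]) (lt_of_le_of_ne inf_le_left fun e => hw (le_cent1_iff.1 (inf_eq_left.1 e)))
      (norm_inf h.an (norm_cent1 (le_cent1_iff.2 (abelian_iff.1 h.ael.abelian hb))))
      (norm_inf h.kn (norm_cent1 (le_cent1_iff.2 hc)))).trans (cent_anti (le_inf (comm_le_left h.kn) ?_)))
    exact le_cent1_iff.2 (Subgroup.zpowers_le.1 h2)

omit [Finite G] in
theorem comm2 (ha : a ∈ A) (hc : c ∈ A) (hn : cj a K ≠ cj c K) : cj a K ≤ C_(cj c K) := by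
  have := (h.conj hc).comm (a * c⁻¹) (A.mul_mem ha (A.inv_mem hc)) fun e => hn (by
    rw [← cj_of_mem_norm e, cj_cj, inv_mul_cancel_right])
  rwa [cj_cj, inv_mul_cancel_right] at this

theorem case1 (hB : B ≤ A) (h0 : ¬ B ≤ C_(W)) (h1 : B ⊓ N_(K) ≤ C_(W)) (h2 : C_(B).relIndex W ≤ C_(W).relIndex B) :
    False := by
  classical
  have := Fintype.ofFinite G
  obtain ⟨l, hl, l1, l2, x, hx, x1, x2, n, x3⟩ := exists_lelt h.qs h.hp (q := if p = 2 then 3 else 2)
    (by split_ifs <;> norm_num)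
  have hc : ∀ c ∈ B, ∀ c' ∈ B, cj c K = cj c' K → c * x * c⁻¹ = c' * x * c'⁻¹ := fun c hc c' hc' e => by
    have hm := B.mul_mem (B.inv_mem hc') hc
    have := mem_cent.1 ((h.cw_iff (hB hm)).1 (h1 ⟨hm, cj_eq_cj_iff.1 e⟩)) x hx
    calc c * x * c⁻¹ = c' * (c'⁻¹ * c * x) * c⁻¹ := by group
      _ = _ := by rw [← this]; group
  have hnc : ∀ c : G, c * x * c⁻¹ ∉ C_(cj c K) := fun c e => x1 (by rwa [← cj_cent, conj_mem_cj_iff] at e)
  let S : Set G := {y | ∃ c ∈ B, y = c * x * c⁻¹}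
  have hS : ∀ y ∈ S, ∀ z ∈ S, y * z = z * y := by
    rintro _ ⟨c, hc1, rfl⟩ _ ⟨c', hc2, rfl⟩
    by_cases e : cj c K = cj c' K
    · rw [hc c hc1 c' hc2 e]
    · exact (mem_cent.1 (h.comm2 (hB hc1) (hB hc2) e (conj_mem_cj c hx)) _ (conj_mem_cj c' hx)).symm
  have hX : IsMulCommutative (Subgroup.closure S) := Subgroup.isMulCommutative_closure hS
  have key : ∀ (H : Subgroup G) (m : ℕ), (∀ y ∈ S, y ^ m ∈ H) → ∀ y ∈ Subgroup.closure S, y ^ m ∈ H := fun H m hm y hy => by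
    induction hy using Subgroup.closure_induction with
    | mem y hy => exact hm y hy
    | one => simp
    | mul y z hy hz h1 h2 => rw [Commute.mul_pow (mul_comm_of_abelian hX hy hz)]; exact H.mul_mem h1 h2
    | inv y hy h1 => rw [inv_pow]; exact H.inv_mem h1
  let Y := Subgroup.closure S ⊓ (B ⊔ cj x B)
  have hY : IsPGroup l Y := fun y => ⟨n, Subtype.ext (Subgroup.mem_bot.1 (key ⊥ _ (by
    rintro _ ⟨c, -, rfl⟩
    rw [conj_pow, x3]
    simp) y y.2.1))⟩
  have hYn : Y ≤ N_(W) := inf_le_right.trans (sup_le (hB.trans h.an) (cj_le_of_mem (hB.trans h.an) (h.kn hx)))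
  let T := (Finset.univ.filter (· ∈ B)).image fun c => cj c K
  have hT : ∀ L, L ∈ T ↔ ∃ c ∈ B, cj c K = L := fun L => by simp [T]
  have hKT : K ∈ T := (hT K).2 ⟨1, B.one_mem, by simp⟩
  have hxS : x ∈ S := ⟨1, B.one_mem, by simp⟩
  have c1 := chain_bound hl hY (T.erase K) fun L hL => by
    obtain ⟨L1, L2⟩ := Finset.mem_erase.1 hL
    obtain ⟨c, hcB, rfl⟩ := (hT L).1 L2
    have hxc : ∀ L' ∈ T, L' ≠ K → x⁻¹ ∈ C_(L') := fun L' h3 h4 => by
      obtain ⟨c', hc', rfl⟩ := (hT L').1 h3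
      exact cent_symm (h.comm c' (hB hc') fun e => h4 (cj_of_mem_norm e)) (K.inv_mem hx)
    refine ⟨c * x * c⁻¹ * x⁻¹, ⟨Subgroup.mul_mem _ (Subgroup.subset_closure ⟨c, hcB, rfl⟩)
      (Subgroup.inv_mem _ (Subgroup.subset_closure hxS)), ?_⟩,
      fun e => hnc c ((Subgroup.mul_mem_cancel_right _ (hxc _ L2 L1)).1 e), fun L' h3 h4 => ?_⟩
    · have := Subgroup.mul_mem _ (Subgroup.mem_sup_left hcB : c ∈ B ⊔ cj x B)
        (Subgroup.mem_sup_right (conj_mem_cj x (B.inv_mem hcB)))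
      rwa [← mul_assoc, ← mul_assoc] at this
    · obtain ⟨L3, L4⟩ := Finset.mem_erase.1 h3
      refine Subgroup.mul_mem _ ?_ (hxc _ L4 L3)
      obtain ⟨c', hc', rfl⟩ := (hT L').1 L4
      exact h.comm2 (hB hcB) (hB hc') h4.symm (conj_mem_cj c hx)
  have hXn : ∀ c ∈ B, Subgroup.closure S ≤ N_(cj c K) := fun c hcB => (Subgroup.closure_le _).2 (by
    rintro _ ⟨c', hc', rfl⟩
    by_cases e : cj c' K = cj c K
    · exact le_norm _ (e ▸ conj_mem_cj c' hx)
    · exact cent_le_norm _ (h.comm2 (hB hc') (hB hcB) e (conj_mem_cj c' hx)))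
  have c2 := rank_bound (W := W) (Z := (T.erase K).inf fun L => C_(L)) hl h.el.abelian (pg_not_dvd hl h.hp h.el.pg l1) _
    (abelian_of_le hX inf_le_left) hY hYn (Finset.le_inf fun L hL y hy => by
      obtain ⟨c, hcB, rfl⟩ := (hT L).1 (Finset.mem_of_mem_erase hL)
      have h' := h.conj (hB hcB)
      by_contra e
      exact h'.nt (absorb h'.qs (norm_cent h'.kn) hy.2 (hXn c hcB hy.1.1) e))
    (fun y hy => (Finset.le_inf (fun L hL => Subgroup.zpowers_le.2 (key _ _ (by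
      obtain ⟨c, hcB, rfl⟩ := (hT L).1 (Finset.mem_of_mem_erase hL)
      rintro _ ⟨c', hc', rfl⟩
      by_cases e : cj c' K = cj c K
      · rw [← e, conj_pow, ← cj_cent]; exact conj_mem_cj _ x2
      · exact Subgroup.pow_mem _ (h.comm2 (hB hc') (hB hcB) e (conj_mem_cj c' hx)) _) y hy.1)) :
        Subgroup.zpowers (y ^ l) ≤ _) (Subgroup.mem_zpowers _)) c1
  set r := C_(W).relIndex B with hr
  have c3 : C_(Y).relIndex W ≤ r * r := by
    refine (Subgroup.relIndex_le_of_le_left (cent_anti inf_le_right) (relIndex_ne_zero _ _)).trans ?_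
    rw [cent_sup]
    refine Subgroup.relIndex_inf_le.trans (Nat.mul_le_mul h2 ?_)
    rw [← cj_cent, ← cj_of_mem_norm (h.kn hx), relIndex_cj]
    exact h2
  have c4 : r ≤ T.card := by
    rw [← Nat.card_eq_finsetCard]
    refine Nat.card_le_card_of_injective (fun q : B ⧸ C_(W).subgroupOf B => (⟨cj q.out K, (hT _).2 ⟨_, q.out.2, rfl⟩⟩ : T))
      fun q q' e => ?_
    rw [← q.out_eq, ← q'.out_eq]
    exact Quotient.sound (QuotientGroup.leftRel_apply.2 (Subgroup.mem_subgroupOf.2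
      (h1 ⟨(q.out⁻¹ * q'.out).2, cj_eq_cj_iff.1 (congrArg Subtype.val e).symm⟩)))
  have c5 : p ≤ r := by
    obtain ⟨n, hn⟩ := pg_card h.hp (pg_le h.ael.pg hB)
    obtain ⟨m, -, hm⟩ := (Nat.dvd_prime_pow h.hp).1 (hn ▸ relIndex_dvd_card C_(W) B)
    rcases m with _ | m
    · exact (h0 (Subgroup.relIndex_eq_one.1 hm)).elim
    · rw [hr, hm, pow_succ']
      exact Nat.le_mul_of_pos_right _ (pow_pos h.hp.pos _)
  rw [Finset.card_erase_of_mem hKT] at c2
  have c6 : (l + 1) ^ (r - 1) ≤ r * r :=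
    ((Nat.pow_le_pow_right (by omega) (by omega)).trans c2).trans c3
  have hl2 := hl.two_le
  have hp2 := h.hp.two_le
  by_cases h3 : 3 ≤ r
  · have : 4 ≤ l + 1 := by
      split_ifs at l2 with e
      · omega
      · omega
    have := (Nat.pow_le_pow_left this (r - 1)).trans c6
    have := four_pow r h3
    nlinarith
  · obtain rfl : p = 2 := by omega
    have e : r = 2 := by omega
    rw [e] at c6
    have : l ≠ 4 := by rintro rfl; norm_num at hl
    simp at l2 c6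
    omega

end PV

end H22.PGV
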