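import Mathlib
import Cfsg.Agent.H22.PGV2

/-!
# The `P(G,V)`-theorem, part 3 (helper22)

The norm map `x ↦ (x a) ^ p`, `PV.star`, reduction to `p = 2` and two components.
-/

set_option autoImplicit false

open BG Cfsg
open scoped commutatorElement

namespace H22.PGV

universe u

variable {G : Type u} [Group G] [Finite G] {p l : ℕ} {A B H K U W X Y Z : Subgroup G} {a b c g s t x y z : G}

/-- partial norm `x · x^a ⋯ x^(a^(n-1))` -/
def dn (a : G) (n : ℕ) (x : G) : G := (x * a) ^ n * (a ^ n)⁻¹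

omit [Finite G] in
theorem dn_succ (n : ℕ) : dn a (n + 1) x = dn a n x * (a ^ n * x * (a ^ n)⁻¹) := by
  simp only [dn, pow_succ]; group

omit [Finite G] in
theorem dn_mem (hx : x ∈ K) (n : ℕ) (h : ∀ j < n, cj (a ^ j) K ≤ H) : dn a n x ∈ H := by
  induction n with
  | zero => simp [dn]
  | succ n ih => rw [dn_succ]; exact H.mul_mem (ih fun j hj => h j (by omega)) (h n (by omega) (conj_mem_cj _ hx))

omit [Finite G] in
theorem dn_first (hx : x ∈ K) (n : ℕ) (h : ∀ j, 0 < j → j < n + 1 → cj (a ^ j) K ≤ H) : x⁻¹ * dn a (n + 1) x ∈ H := by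
  induction n with
  | zero => simp [dn]
  | succ n ih =>
    rw [dn_succ, ← mul_assoc]
    exact H.mul_mem (ih fun j h1 h2 => h j h1 (by omega)) (h _ (by omega) (by omega) (conj_mem_cj _ hx))

theorem cent_of_dec (hn : y ∈ N_(U)) (hU : IsMulCommutative U) (hc : (orderOf y).Coprime (Nat.card U))
    (h1 : U ⊓ C_[y] ≤ C_[x]) (h2 : ⁅U, Subgroup.zpowers y⁆ ≤ C_[x]) : x ∈ C_(U) := by
  have := (coprime_abelian_dprod (Subgroup.zpowers_le.2 hn) (by rwa [card_zpowers]) hU).sdprod.sup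
  rw [cent_zpowers] at this
  exact le_cent1_iff.1 (this ▸ sup_le h1 h2)

theorem cent_of_elt (hK : IsQuasisimple K) (hn : b ∈ N_(K)) (h : ∀ k ∈ K, b * k * b⁻¹ * k⁻¹ ∈ C_(K)) : b ∈ C_(K) := by
  refine Subgroup.zpowers_le.1 (cent_of_comm hK (Subgroup.commutator_le.2 fun g hg k hk => ?_))
  obtain ⟨n, rfl⟩ := mem_powers_iff_mem_zpowers.2 hg
  induction n with
  | zero => simp
  | succ n ih =>
    have := Subgroup.mul_mem _ (conj_mem_of_norm (norm_le_norm_cent K hn) (ih (Subgroup.npow_mem_zpowers b n))) (h k hk)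
    convert this using 1
    simp only [commutatorElement_def, pow_succ']
    group

namespace PV

variable (h : PV p W A K) (ha : a ∈ A) (hn : a ∉ N_(K))
include h ha hn

omit [Finite G] in
theorem kij {i j : ℕ} (hi : i < p) (hj : j < p) (hij : i ≠ j) : cj (a ^ i) K ≤ C_(cj (a ^ j) K) := by
  wlog hlt : j < i generalizing i j
  · exact cent_symm (this hj hi hij.symm (by omega))
  refine h.comm2 (A.pow_mem ha _) (A.pow_mem ha _) fun e => ?_
  obtain ⟨k, rfl⟩ : ∃ k, i = j + k := ⟨i - j, by omega⟩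
  have := cj_eq_cj_iff.1 e
  rw [pow_add, inv_mul_cancel_left] at this
  obtain ⟨m, hm⟩ := exists_pow_eq_self_of_coprime (x := a) (n := k) ((Nat.coprime_of_lt_prime (by omega) (by omega)
    h.hp).symm.coprime_dvd_right (orderOf_dvd_of_pow_eq_one (h.ael.pow ha)))
  exact hn (hm ▸ Subgroup.pow_mem _ this m)

omit [Finite G] in
theorem k0j {j : ℕ} (h0 : 0 < j) (hj : j < p) : cj (a ^ j) K ≤ C_(K) := by
  simpa using h.kij ha hn hj h.hp.pos h0.ne'

omit [Finite G] in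
theorem dn_mul (hx : x ∈ K) (hy : y ∈ K) (n : ℕ) (hp : n ≤ p) : dn a n (x * y) = dn a n x * dn a n y := by
  induction n with
  | zero => simp [dn]
  | succ n ih =>
    have := mem_cent.1 (dn_mem hy n fun j hj => h.kij ha hn (by omega) (by omega : n < p) hj.ne) _ (conj_mem_cj (a ^ n) hx)
    rw [dn_succ, dn_succ, dn_succ, ih (by omega), mul_assoc (dn a n x), mul_assoc (dn a n x),
      ← mul_assoc (a ^ n * x * (a ^ n)⁻¹) (dn a n y), this]
    group

omit [Finite G] in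
theorem dn_pow (hx : x ∈ K) (m : ℕ) : dn a p (x ^ m) = dn a p x ^ m := by
  induction m with
  | zero => simp [dn]
  | succ m ih => rw [pow_succ, h.dn_mul ha hn (K.pow_mem hx m) hx p le_rfl, ih, pow_succ]

omit [Finite G] in
theorem d_ord (hx : x ∈ K) : orderOf (dn a p x) ∣ orderOf x :=
  orderOf_dvd_of_pow_eq_one (by rw [← h.dn_pow ha hn hx, pow_orderOf_eq_one]; simp [dn])

omit [Finite G] ha hn in
theorem d_first (hx : x ∈ K) (hH : ∀ j, 0 < j → j < p → cj (a ^ j) K ≤ H) : x⁻¹ * dn a p x ∈ H := by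
  obtain ⟨n, rfl⟩ : ∃ n, p = n + 1 := ⟨p - 1, by have := h.hp.pos; omega⟩
  exact dn_first hx n hH

omit [Finite G] in
theorem d_cent (hx : x ∈ K) : x⁻¹ * dn a p x ∈ C_(K) := h.d_first hx fun _ => h.k0j ha hn

omit [Finite G] hn in
theorem d_norm (hx : x ∈ K) : dn a p x ∈ N_(W) := dn_mem hx p fun j _ => (h.conj (A.pow_mem ha j)).kn

omit [Finite G] in
theorem d_x (hx : x ∈ K) : x ∈ C_[dn a p x] := by
  have := mem_cent.1 (h.d_cent ha hn hx) x hx
  rw [mul_inv_cancel_left, mul_assoc, eq_inv_mul_iff_mul_eq] at this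
  exact mem_cent1.2 this

omit [Finite G] in
theorem d_a (hx : x ∈ K) : a ∈ C_[dn a p x] := by
  refine (Subgroup.mul_mem_cancel_left _ (h.d_x ha hn hx)).1 (mem_cent1.2 ?_)
  rw [dn, h.ael.pow ha, inv_one, mul_one, ← pow_succ, ← pow_succ']

omit [Finite G] in
theorem absorb_d (hH : K ≤ N_(H)) (hx : x ∈ K) (hc : x ∉ C_(K)) (hm : dn a p x ∈ H) : K ≤ H :=
  h.absorb1 hH hx hc (h.d_cent ha hn hx) (by rwa [mul_inv_cancel_left])

theorem star (hb : b ∈ A) (b1 : b ∈ N_(K)) (b2 : b ∉ C_(K)) (b3 : b ∈ C_(⁅W, A⁆)) (hx : x ∈ K) :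
    a ∈ C_(⁅W, Subgroup.zpowers (dn a p x)⁆) := by
  have ha' := Subgroup.zpowers_le.2 ha
  have hN : ∀ x ∈ K, dn a p x ∈ N_(C_(⁅W, Subgroup.zpowers a⁆)) := fun x hx => Subgroup.zpowers_le.1 (norm_cent
    (norm_comm (Subgroup.zpowers_le.2 (h.d_norm ha hx)) (le_norm_of_cent (by
      rw [cent_zpowers]; exact Subgroup.zpowers_le.2 (mem_cent1_comm.1 (h.d_a ha hn hx))))))
  have hinv : ∀ x ∈ K, dn a p x⁻¹ = (dn a p x)⁻¹ := fun x hx => eq_inv_of_mul_eq_one_left (by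
    rw [← h.dn_mul ha hn (K.inv_mem hx) hx p le_rfl]; simp [dn])
  let M : Subgroup G :=
    { carrier := {x | x ∈ K ∧ dn a p x ∈ C_(⁅W, Subgroup.zpowers a⁆)}
      one_mem' := ⟨K.one_mem, by simp [dn]⟩
      mul_mem' := fun h1 h2 => ⟨K.mul_mem h1.1 h2.1, by
        rw [h.dn_mul ha hn h1.1 h2.1 p le_rfl]; exact Subgroup.mul_mem _ h1.2 h2.2⟩
      inv_mem' := fun h1 => ⟨K.inv_mem h1.1, by rw [hinv _ h1.1]; exact Subgroup.inv_mem _ h1.2⟩ }
  have hM : K ≤ N_(M) := le_norm_iff.2 fun k hk y hy => ⟨conj_mem_of_norm (le_norm K hk) hy.1, by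
    rw [h.dn_mul ha hn (K.mul_mem hk hy.1) (K.inv_mem hk) p le_rfl, h.dn_mul ha hn hk hy.1 p le_rfl, hinv k hk]
    exact conj_mem_of_norm (hN k hk) hy.2⟩
  have hab := mul_comm_of_abelian h.ael.abelian ha hb
  have hK : K ≤ M := by
    rcases (isQuasisimple_subgroup_iff.1 h.qs).2.2 M (fun _ hy => hy.1) hM with e | e
    · exact e.ge
    exact (b2 (cent_of_elt h.qs b1 fun k hk => e ⟨K.mul_mem (conj_mem_of_norm b1 hk) (K.inv_mem hk), by
      rw [h.dn_mul ha hn (conj_mem_of_norm b1 hk) (K.inv_mem hk) p le_rfl, hinv k hk]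
      have e1 : dn a p (b * k * b⁻¹) = b * dn a p k * b⁻¹ := by
        rw [dn, dn, h.ael.pow ha, inv_one, mul_one, mul_one, ← conj_pow, mul_assoc b (k * a), mul_assoc k, mul_assoc,
          mul_assoc, (Commute.inv_right (show Commute a b from hab)).eq]
      have b4 := cent_anti (comm_mono le_rfl ha') b3
      have := Subgroup.mul_mem _ b4 (conj_mem_of_norm (hN k hk) (Subgroup.inv_mem _ b4))
      rwa [e1, mul_assoc, mul_assoc, ← mul_assoc (dn a p k)]⟩)).elim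
  exact Subgroup.zpowers_le.1 (swap3 (by rw [cent_zpowers]; exact Subgroup.zpowers_le.2 (h.d_a ha hn hx))
    (Subgroup.zpowers_le.2 (hK hx).2))

omit ha hn in
theorem exists_p' : ∃ x ∈ K, x ∉ C_(K) ∧ (orderOf x).Coprime (Nat.card W) := by
  obtain ⟨l, hl, l1, -, x, hx, x1, -, n, x2⟩ := exists_lelt h.qs h.hp h.hp
  obtain ⟨m, hm⟩ := pg_card h.hp h.el.pg
  exact ⟨x, hx, x1, hm ▸ (Nat.coprime_pow_primes _ _ hl h.hp l1).coprime_dvd_left (orderOf_dvd_of_pow_eq_one x2)⟩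

variable (hb : b ∈ A) (b1 : b ∈ N_(K)) (b2 : b ∉ C_(K)) (b3 : b ∈ C_(⁅W, A⁆))
include hb b1 b2 b3

theorem lemG (hU : U ≤ W) (hK : K ≤ N_(U)) (h1 : ∀ j, 0 < j → j < p → cj (a ^ j) K ≤ C_(U)) (h2 : U ⊓ C_[a] ≤ C_(K)) :
    K ≤ C_(U) := by
  obtain ⟨x, hx, x1, x2⟩ := h.exists_p'
  have h3 := h.d_first hx h1
  have h4 : dn a p x ∈ N_(U) := (Subgroup.mul_mem_cancel_left _ (hK (K.inv_mem hx))).1 (cent_le_norm U h3)
  refine absorb h.qs (norm_cent hK) (cent_of_dec h4 (abelian_of_le h.el.abelian hU)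
    ((x2.coprime_dvd_left (h.d_ord ha hn hx)).coprime_dvd_right (card_dvd hU)) (fun u hu => ?_) ?_) (le_norm K hx) x1
  · have := Subgroup.mul_mem _ (le_cent1_iff.2 h3 hu.1 |> mem_cent1_comm.1) (Subgroup.inv_mem _ (mem_cent1_comm.1 hu.2))
    rw [mul_inv_cancel_right, Subgroup.inv_mem_iff] at this
    exact mem_cent1_comm.1 this
  · exact ((le_inf (comm_le_left (Subgroup.zpowers_le.2 h4)) ((comm_mono hU le_rfl).trans
      (le_cent1_iff.2 (h.star ha hn hb b1 b2 b3 hx)))).trans h2).trans (cent_le_cent1 hx)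

theorem nc (h1 : ∀ j, 0 < j → j < p → cj (a ^ j) K ≤ C_(⁅W, K⁆)) : False := by
  refine h.nt2 (h.lemG ha hn hb b1 b2 b3 (comm_le_left h.kn) (right_le_norm_comm _ _) h1 fun u hu => ?_)
  have h2 := cj_mono a (cent_symm (h1 (p - 1) (by have := h.hp.two_le; omega) (by have := h.hp.pos; omega)))
  rw [cj_cent, cj_cj, ← pow_succ', Nat.sub_add_cancel h.hp.pos, h.ael.pow ha] at h2
  have := h2 (conj_mem_cj a hu.1)
  rw [← mem_cent1.1 hu.2, mul_inv_cancel_right] at this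
  simpa using this

theorem zmem (hx : x ∈ K) (hg : g ∈ N_(W)) (hc : g ∈ C_[dn a p x]) :
    g * (a * g⁻¹ * a⁻¹) ∈ C_(⁅W, Subgroup.zpowers (dn a p x)⁆) := by
  have h1 := h.star ha hn hb b1 b2 b3 hx
  have h2 : g ∈ N_(C_(⁅W, Subgroup.zpowers (dn a p x)⁆)) := Subgroup.zpowers_le.1 (norm_cent (norm_comm
    (Subgroup.zpowers_le.2 hg) (le_norm_of_cent (by rw [cent_zpowers]; exact Subgroup.zpowers_le.2 hc))))
  have := Subgroup.mul_mem _ (conj_mem_of_norm h2 h1) (Subgroup.inv_mem _ h1)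
  rwa [mul_assoc, mul_assoc, ← mul_assoc a] at this

theorem p_eq_two : p = 2 := by
  by_contra hp2
  have h3 : 3 ≤ p := by have := h.hp.two_le; omega
  obtain ⟨x, hx, x1, -⟩ := h.exists_p'
  have key : ∀ i, 0 < i → i + 1 < p → cj (a ^ i) K ≤ C_(⁅W, K⁆) ∧ cj (a ^ (i + 1)) K ≤ C_(⁅W, K⁆) := fun i h1 h2 => by
    have hi := h.conj (A.pow_mem ha i)
    have hj := h.conj (A.pow_mem ha (i + 1))
    have g1 := conj_mem_cj (a ^ i) hx
    have g2 : a * (a ^ i * x * (a ^ i)⁻¹)⁻¹ * a⁻¹ ∈ cj (a ^ (i + 1)) K := by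
      rw [pow_succ', ← cj_cj]; exact conj_mem_cj a (Subgroup.inv_mem _ g1)
    have g3 : a ^ i * x * (a ^ i)⁻¹ ∈ C_[dn a p x] := Subgroup.mul_mem _ (Subgroup.mul_mem _
      (Subgroup.pow_mem _ (h.d_a ha hn hx) _) (h.d_x ha hn hx)) (Subgroup.inv_mem _ (Subgroup.pow_mem _ (h.d_a ha hn hx) _))
    have g4 : a ^ i * x * (a ^ i)⁻¹ ∉ C_(cj (a ^ i) K) := fun e => x1 (by rwa [← cj_cent, conj_mem_cj_iff] at e)
    set g := a ^ i * x * (a ^ i)⁻¹
    have g5 : a * g⁻¹ * a⁻¹ ∉ C_(cj (a ^ (i + 1)) K) := fun e => g4 (by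
      rwa [pow_succ', ← cj_cj, ← cj_cent, conj_mem_cj_iff, Subgroup.inv_mem_iff] at e)
    have z1 := h.zmem ha hn hb b1 b2 b3 hx (hi.kn g1) g3
    have z2 : g * (a * g⁻¹ * a⁻¹) ∈ C_(K) :=
      Subgroup.mul_mem _ (h.k0j ha hn h1 (by omega) g1) (h.k0j ha hn (by omega) h2 g2)
    have z3 : g * (a * g⁻¹ * a⁻¹) ∈ C_[dn a p x] := Subgroup.mul_mem _ g3 (Subgroup.mul_mem _ (Subgroup.mul_mem _
      (h.d_a ha hn hx) (Subgroup.inv_mem _ g3)) (Subgroup.inv_mem _ (h.d_a ha hn hx)))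
    have z4 := swap3 (X := Subgroup.zpowers (dn a p x)) (by
      rw [cent_zpowers]; exact Subgroup.zpowers_le.2 (mem_cent1_comm.1 z3)) (Subgroup.zpowers_le.2 z1)
    have z5 := h.absorb_d ha hn (norm_cent (norm_comm h.kn (le_norm_of_cent (cent_symm (Subgroup.zpowers_le.2 z2))))) hx x1
      (Subgroup.zpowers_le.1 z4)
    have z6 := Subgroup.zpowers_le.1 (swap3 (Subgroup.zpowers_le.2 z2) z5)
    have k1 := h.kij ha hn (by omega : i < p) h2 (by omega)
    refine ⟨hi.absorb1 (norm_cent (norm_comm hi.kn (le_norm_of_cent (h.k0j ha hn h1 (by omega))))) g1 g4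
      (cent_symm k1 g2) z6, hj.absorb1 (norm_cent (norm_comm hj.kn (le_norm_of_cent (h.k0j ha hn (by omega) h2)))) g2 g5
      (k1 g1) ?_⟩
    rwa [mem_cent.1 (k1 g1) _ g2]
  refine h.nc ha hn hb b1 b2 b3 fun j h1 h2 => ?_
  by_cases e : j + 1 < p
  · exact (key j h1 e).1
  · have := (key (j - 1) (by omega) (by omega)).2
    rwa [Nat.sub_add_cancel h1] at this

theorem orbit_two (hp : p = 2) (hc : c ∈ A) : cj c K = K ∨ cj c K = cj a K := by
  subst hp
  by_contra hh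
  push Not at hh
  have hcn : c ∉ N_(K) := fun e => hh.1 (cj_of_mem_norm e)
  have h' := h.conj hc
  refine h.nc hc hcn hb b1 b2 b3 fun j j1 j2 => ?_
  obtain rfl : j = 1 := by omega
  rw [pow_one]
  obtain ⟨x, hx, x1, -⟩ := h.exists_p'
  have k1 : cj c K ≤ C_[dn a 2 x] := le_cent1_iff.2 (dn_mem hx 2 fun j hj => by
    interval_cases j
    · simpa using cent_symm (h.comm c hc hcn)
    · simpa using h.comm2 ha hc hh.2.symm)
  have k2 : cj c K ≤ C_(⁅W, Subgroup.zpowers (dn a 2 x)⁆) := h'.absorb2 (norm_cent (norm_comm h'.kn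
    (le_norm_of_cent (by rwa [cent_zpowers])))) ha (by rwa [← cj_norm, h.mem_cj_iff hc ha]) (h.star ha hn hb b1 b2 b3 hx)
  have k3 := swap3 (X := Subgroup.zpowers (dn a 2 x)) (cent_symm (by rwa [cent_zpowers])) k2
  exact swap3 (h.comm c hc hcn) (h.absorb_d ha hn (norm_cent (norm_comm h.kn (le_norm_of_cent
    (cent_symm (h.comm c hc hcn))))) hx x1 (Subgroup.zpowers_le.1 k3))

end PV

end H22.PGV
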