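import Mathlib
import Cfsg.Agent.H22.PGV3
import Cfsg.Agent.H01.KS91

/-!
# The `P(G,V)`-theorem (helper22)

`PV.le_norm`: a best offender on a minimal module normalises the component; `pgv`: ambient form of the theorem.
-/

set_option autoImplicit false

open BG Cfsg
open scoped commutatorElement

namespace H22.PGV

universe u

variable {G : Type u} [Group G] [Finite G] {p l : ℕ} {A B H K U V W X Y Z : Subgroup G} {a b c g s t x y z : G}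

omit [Finite G] in
theorem dn2 : dn a 2 x = x * (a * x * a⁻¹) := by simp only [dn, pow_two]; group

theorem cop_two (hW : IsElementaryAbelian 2 W) {n : ℕ} (h : Odd n) : n.Coprime (Nat.card W) := by
  obtain ⟨m, hm⟩ := pg_card Nat.prime_two hW.pg
  exact hm ▸ (Nat.coprime_two_right.2 h).pow_right m

namespace PV

variable (h : PV 2 W A K) (ha : a ∈ A) (hn : a ∉ N_(K)) (hb : b ∈ A) (b1 : b ∈ N_(K)) (b2 : b ∉ C_(K))
  (b3 : b ∈ C_(⁅W, A⁆))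
include h ha

omit [Finite G] in
theorem aa : a * a = 1 := by rw [← sq, h.ael.pow ha]

omit [Finite G] in
theorem cj_aa : cj a (cj a X) = X := by rw [cj_cj, h.aa ha]; simp

include hn hb b1 b2 b3

theorem f1 : W ⊓ C_(cj a K) ≤ C_(K) := by
  refine cent_symm (h.lemG ha hn hb b1 b2 b3 inf_le_left (norm_inf h.kn (norm_cent (le_norm_of_cent
    (cent_symm (h.comm a ha hn))))) (fun j j1 j2 => ?_) fun u hu => ?_)
  · obtain rfl : j = 1 := by omega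
    rw [pow_one]; exact cent_symm inf_le_right
  · have := conj_mem_cj a hu.1.2
    rwa [cj_cent, h.cj_aa ha, ← mem_cent1.1 hu.2, mul_inv_cancel_right] at this

theorem f2 (hx : x ∈ K) (x1 : x ∉ C_(K)) (x2 : Odd (orderOf x)) : W ⊓ C_[x] ≤ C_(cj a K) := by
  have h' := h.conj ha
  have hK : cj a K ≤ N_(W ⊓ C_[x]) := norm_inf h'.kn (norm_cent1 ((h.comm a ha hn).trans (cent_le_cent1 hx)))
  have hy : dn a 2 x ∈ N_(W ⊓ C_[x]) := Subgroup.zpowers_le.1 (norm_inf (Subgroup.zpowers_le.2 (h.d_norm ha hx))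
    (norm_cent1 (Subgroup.zpowers_le.2 (mem_cent1_comm.1 (h.d_x ha hn hx)))))
  refine cent_symm (absorb h'.qs (norm_cent hK) (cent_of_dec hy (abelian_of_le h.el.abelian inf_le_left)
    (cop_two (h.el.of_le inf_le_left) (x2.of_dvd_nat (h.d_ord ha hn hx))) (fun u hu => ?_) fun u hu => ?_)
    (le_norm _ (conj_mem_cj a hx)) fun e => x1 (by rwa [← cj_cent, conj_mem_cj_iff] at e))
  · have := mem_cent1_comm.1 hu.2
    rw [dn2, Subgroup.mul_mem_cancel_left _ (mem_cent1_comm.1 hu.1.2)] at this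
    exact mem_cent1_comm.1 this
  · have := mem_cent1_comm.1 (le_cent1_iff.2 (h.zmem ha hn hb b1 b2 b3 hx (h.kn hx) (h.d_x ha hn hx))
      (comm_mono inf_le_left le_rfl hu))
    rw [Subgroup.mul_mem_cancel_left _ (mem_cent1_comm.1 (comm_le_left (Subgroup.zpowers_le.2 hy) hu).2),
      ← conj_inv, Subgroup.inv_mem_iff] at this
    exact mem_cent1_comm.1 this

theorem f3 (hx : x ∈ K) (x1 : x ∉ C_(K)) (x2 : Odd (orderOf x)) : W ⊓ C_[x] = ⊥ := by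
  have h' := h.conj ha
  have hx' := Subgroup.zpowers_le.2 hx
  have d := coprime_abelian_dprod (hx'.trans h.kn) (by rw [card_zpowers]; exact cop_two h.el x2) h.el.abelian
  have hL : ⁅W, Subgroup.zpowers x⁆ ≤ W := comm_le_left (hx'.trans h.kn)
  have hN := le_norm_of_abelian h.el.abelian hL
  rw [cent_zpowers] at d
  have h1 : ⁅W, cj a K⁆ ≤ ⁅W, Subgroup.zpowers x⁆ := by
    conv_lhs => rw [← d.sdprod.sup]
    refine comm_sup_le (inf_le_left.trans hN) (hL.trans hN) ?_ (comm_le_left (norm_comm h'.kn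
      (le_norm_of_cent ((h.comm a ha hn).trans (cent_anti hx')))))
    rw [comm_eq_bot.2 (h.f2 ha hn hb b1 b2 b3 hx x1 x2)]
    exact bot_le
  have h2 : cj a ⁅W, Subgroup.zpowers x⁆ ≤ ⁅W, cj a K⁆ := by
    rw [cj_comm, cj_of_mem_norm (h.an ha)]; exact comm_mono le_rfl (cj_mono a hx')
  have h3 := cj_of_mem_norm (mem_norm_of_cj_le (h2.trans h1))
  have h4 : ⁅W, cj a K⁆ = ⁅W, Subgroup.zpowers x⁆ := le_antisymm h1 (h3 ▸ h2)
  have h5 : ⁅W, K⁆ = ⁅W, Subgroup.zpowers x⁆ := by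
    rw [← h3, ← h4, cj_comm, h.cj_aa ha, cj_of_mem_norm (h.an ha)]
  have h6 : ⁅W, K⁆ = W := by
    by_contra e
    refine h.nt2 (h.min _ (lt_of_le_of_ne (comm_le_left h.kn) e) (le_norm_iff_cj.2 fun c hc => ?_) (right_le_norm_comm _ _))
    rw [cj_comm, cj_of_mem_norm (h.an hc)]
    rcases h.orbit_two ha hn hb b1 b2 b3 rfl hc with e | e <;> rw [e]
    rw [h4, h5]
  have := d.disj
  rwa [← h5, h6, inf_eq_left.2 inf_le_left] at this

theorem f4 (hx : x ∈ K) (x1 : x ∉ C_(K)) (x2 : Odd (orderOf x)) :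
    (W ⊓ C_[dn a 2 x]) ⊓ C_[x * (a * x⁻¹ * a⁻¹)] = ⊥ ∧ ⁅W, Subgroup.zpowers (dn a 2 x)⁆ = W ⊓ C_[x * (a * x⁻¹ * a⁻¹)] ∧
    Nat.card ↥(W ⊓ C_[dn a 2 x]) = C_[a].relIndex W ^ 2 ∧ x * (a * x⁻¹ * a⁻¹) ∈ N_(W ⊓ C_[dn a 2 x]) ∧
    Nat.card W = C_[a].relIndex W ^ 2 * Nat.card ↥(W ⊓ C_[x * (a * x⁻¹ * a⁻¹)]) := by
  have hc : Commute x (a * x⁻¹ * a⁻¹) := mem_cent.1 (h.comm a ha hn (conj_mem_cj a (K.inv_mem hx))) x hx
  have hy := Subgroup.zpowers_le.2 (h.d_norm ha hx)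
  have d := coprime_abelian_dprod hy (by rw [card_zpowers]; exact cop_two h.el (x2.of_dvd_nat (h.d_ord ha hn hx))) h.el.abelian
  rw [cent_zpowers] at d
  have z1 := le_cent1_iff.2 (h.zmem ha hn hb b1 b2 b3 hx (h.kn hx) (h.d_x ha hn hx))
  have z2 : x * (a * x⁻¹ * a⁻¹) ∈ C_[dn a 2 x] := Subgroup.mul_mem _ (h.d_x ha hn hx) (Subgroup.mul_mem _ (Subgroup.mul_mem _
    (h.d_a ha hn hx) (Subgroup.inv_mem _ (h.d_x ha hn hx))) (Subgroup.inv_mem _ (h.d_a ha hn hx)))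
  have z3 : x * (a * x⁻¹ * a⁻¹) ∈ N_(W) :=
    Subgroup.mul_mem _ (h.kn hx) ((h.conj ha).kn (conj_mem_cj a (K.inv_mem hx)))
  have z4 : Odd (orderOf (x * (a * x⁻¹ * a⁻¹))) := x2.of_dvd_nat (orderOf_dvd_of_pow_eq_one (by
    rw [hc.mul_pow, conj_pow, inv_pow, pow_orderOf_eq_one]; simp))
  have z5 : a * (x * (a * x⁻¹ * a⁻¹)) * a⁻¹ = (x * (a * x⁻¹ * a⁻¹))⁻¹ := by
    have := inv_eq_of_mul_eq_one_right (h.aa ha)
    calc _ = a * x * (a * x⁻¹ * (a * a)⁻¹) := by group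
      _ = _ := by rw [h.aa ha]; nth_rewrite 2 [← this]; group
  have e1 : (W ⊓ C_[dn a 2 x]) ⊓ C_[x * (a * x⁻¹ * a⁻¹)] = ⊥ := by
    rw [eq_bot_iff, ← h.f3 ha hn hb b1 b2 b3 hx x1 x2]
    refine fun u hu => ⟨hu.1.1, mem_cent1_comm.1 ?_⟩
    have := Subgroup.mul_mem _ (mem_cent1_comm.1 hu.1.2) (mem_cent1_comm.1 hu.2)
    rw [dn2, hc.eq, show x * (a * x * a⁻¹) * (a * x⁻¹ * a⁻¹ * x) = x ^ 2 by rw [sq]; group] at this
    by_contra e
    exact not_mem_pow e (Nat.coprime_two_right.2 x2) this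
  set z := x * (a * x⁻¹ * a⁻¹)
  set y := dn a 2 x
  have hab : ∀ {X Y : Subgroup G}, X ≤ W → Y ≤ W → X ≤ N_(Y) := fun h1 h2 => h1.trans (le_norm_of_abelian h.el.abelian h2)
  have e1' : (W ⊓ C_[y]) ⊓ (W ⊓ C_[z]) = ⊥ := eq_bot_mono e1 (inf_le_inf_left _ inf_le_right)
  have c1 := card_sup_of_disj (hab inf_le_left inf_le_left) e1'
  have c2 := card_le (sup_le inf_le_left inf_le_left : (W ⊓ C_[y]) ⊔ (W ⊓ C_[z]) ≤ W)
  have e2 : ⁅W, Subgroup.zpowers y⁆ = W ⊓ C_[z] := eq_of_le_of_card_le (le_inf (comm_le_left hy) z1)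
    (Nat.le_of_mul_le_mul_left (c1 ▸ d.card ▸ c2) (card_pos _))
  have z6 : z ∈ N_(W ⊓ C_[y]) := Subgroup.zpowers_le.1 (norm_inf (Subgroup.zpowers_le.2 z3) (norm_cent1 (Subgroup.zpowers_le.2 z2)))
  have c3 := inv_sq (h.el.of_le (inf_le_left : W ⊓ C_[y] ≤ W)) (h.aa ha) (Subgroup.zpowers_le.1 (norm_inf
    (Subgroup.zpowers_le.2 (h.an ha)) (norm_cent1 (Subgroup.zpowers_le.2 (h.d_a ha hn hx))))) z4 z6 z5 e1
  have s1 : W ⊓ C_[z] ≤ C_[a] := e2 ▸ le_cent1_iff.2 (h.star ha hn hb b1 b2 b3 hx)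
  have e3 : C_[a] ⊓ W = (W ⊓ C_[z]) ⊔ (C_[a] ⊓ (W ⊓ C_[y])) := by
    rw [← BG.dedekind (H := W ⊓ C_[y]) s1 (Or.inl (hab inf_le_left inf_le_left)), ← e2, sup_comm, d.sdprod.sup]
  have c4 := card_inf_mul_relIndex C_[a] W
  have c5 := d.card
  rw [e3, card_sup_of_disj (hab (inf_le_right.trans inf_le_left) inf_le_left)
    (eq_bot_mono e1' (le_inf (inf_le_right.trans inf_le_right) inf_le_left)), inf_comm C_[a], c5, e2, c3] at c4
  have c6 : C_[a].relIndex W = Nat.card ↥((W ⊓ C_[y]) ⊓ C_[a]) := by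
    have p1 := card_pos (W ⊓ C_[z])
    have p2 := card_pos ((W ⊓ C_[y]) ⊓ C_[a])
    refine Nat.eq_of_mul_eq_mul_left (Nat.mul_pos p1 p2) (c4.trans (by ring))
  exact ⟨e1, e2, c6 ▸ c3, z6, by rw [c5, e2, c3, c6]⟩

theorem f5 : Nat.card W = C_[a].relIndex W ^ 4 := by
  obtain ⟨s, hs, s1, s2⟩ := exists_invol h.qs
  obtain ⟨x, hx, x2, x1, x3⟩ := exists_inv_odd h.qs (le_norm K hs) s1 s2
  obtain ⟨-, -, e3, -, e5⟩ := h.f4 ha hn hb b1 b2 b3 hx x1 x2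
  have hc := mem_cent.1 (h.comm a ha hn (conj_mem_cj a hx))
  have : cj s (W ⊓ C_[dn a 2 x]) = W ⊓ C_[x * (a * x⁻¹ * a⁻¹)] := by
    rw [cj_inf, cj_of_mem_norm (h.kn hs), cj_cent1, dn2, ← cent_zpowers, ← cent_zpowers, ← Subgroup.zpowers_inv]
    congr 3
    rw [← conj_mul, x3, hc s hs, mul_inv_cancel_right, hc _ (K.inv_mem hx)]
    group
  rw [e5, ← this, card_cj, e3]
  ring

theorem f6 (hc : c ∈ A) (c1 : c ∈ N_(K)) (c2 : c ∉ C_(K)) : Nat.card ↥(W ⊓ C_[c]) = C_[a].relIndex W ^ 2 := by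
  obtain ⟨x, hx, x2, x1, x3⟩ := exists_inv_odd h.qs c1 (h.aa hc ▸ one_mem _) c2
  have := inv_sq h.el (h.aa hc) (h.an hc) x2 (h.kn hx) x3 (h.f3 ha hn hb b1 b2 b3 hx x1 x2)
  rw [h.f5 ha hn hb b1 b2 b3, show 4 = 2 * 2 from rfl, pow_mul] at this
  exact (Nat.pow_left_injective two_ne_zero this).symm

theorem f7 (hc : c ∈ A) (c1 : c ∈ N_(K)) (c2 : c ∉ C_(K)) : W ⊓ C_(A) = W ⊓ C_[c] := by
  refine eq_of_le_of_card_le (inf_le_inf_left _ (cent_le_cent1 hc)) ?_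
  have h1 := card_inf_mul_relIndex C_[b] W
  rw [inf_comm, h.f6 ha hn hb b1 b2 b3 hb b1 b2, h.f5 ha hn hb b1 b2 b3, show 4 = 2 + 2 from rfl, pow_add] at h1
  rw [h.f6 ha hn hb b1 b2 b3 hc c1 c2, ← Nat.eq_of_mul_eq_mul_left (pow_pos (Nat.pos_of_ne_zero (relIndex_ne_zero _ _)) 2) h1]
  exact (card_le_comm h.el.abelian (h.an hb)).trans (card_le (le_inf (comm_le_left (Subgroup.zpowers_le.2 (h.an hb)))
    (cent_symm (swap3 (le_cent_of_abelian h.ael.abelian le_rfl (Subgroup.zpowers_le.2 hb)) (Subgroup.zpowers_le.2 b3)))))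

theorem f8 (hc : c ∈ A) (c1 : c ∈ N_(K)) {v : G} (hv : v ∈ W ⊓ C_[a]) (v1 : v ∉ C_(A))
    (v2 : v⁻¹ * (c * v * c⁻¹) ∈ ⁅W, Subgroup.zpowers a⁆) : c ∈ C_(K) := by
  by_contra c2
  obtain ⟨x, hx, x2, x1, x3⟩ := exists_inv_odd h.qs c1 (h.aa hc ▸ one_mem _) c2
  obtain ⟨e1, e2, -, -, e5⟩ := h.f4 ha hn hb b1 b2 b3 hx x1 x2
  have r1 : ⁅W, Subgroup.zpowers a⁆ ≤ W := comm_le_left (Subgroup.zpowers_le.2 (h.an ha))
  have r2 : ⁅W, Subgroup.zpowers a⁆ ≤ C_[dn a 2 x] := le_cent1_iff.2 (Subgroup.zpowers_le.1 (swap3 (by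
    rw [cent_zpowers]; exact Subgroup.zpowers_le.2 (mem_cent1_comm.1 (h.d_a ha hn hx)))
    (Subgroup.zpowers_le.2 (h.star ha hn hb b1 b2 b3 hx))))
  have r3 : ⁅W, Subgroup.zpowers a⁆ ≤ W ⊓ C_(A) := by
    rw [h.f7 ha hn hb b1 b2 b3 hb b1 b2]
    exact le_inf r1 (le_cent1_iff.2 (cent_anti (comm_mono le_rfl (Subgroup.zpowers_le.2 ha)) b3))
  have s1 : W ⊓ C_[x * (a * x⁻¹ * a⁻¹)] ≤ C_[a] := e2 ▸ le_cent1_iff.2 (h.star ha hn hb b1 b2 b3 hx)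
  have hz : c ∈ N_(W ⊓ C_[x * (a * x⁻¹ * a⁻¹)]) := mem_norm_of_cj_le (le_of_eq (by
    have hac := mul_comm_of_abelian h.ael.abelian ha hc
    rw [cj_inf, cj_of_mem_norm (h.an hc), cj_cent1, ← cent_zpowers, ← cent_zpowers, ← Subgroup.zpowers_inv]
    congr 4
    rw [show c * (x * (a * x⁻¹ * a⁻¹)) * c⁻¹ = (c * x * c⁻¹) * ((c * a * c⁻¹) * (c * x * c⁻¹)⁻¹ * (c * a * c⁻¹)⁻¹) by group,
      x3, ← hac, mul_inv_cancel_right, inv_inv, mem_cent.1 (h.comm a ha hn (conj_mem_cj a hx)) _ (K.inv_mem hx)]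
    group))
  set Z := W ⊓ C_[x * (a * x⁻¹ * a⁻¹)]
  set R := ⁅W, Subgroup.zpowers a⁆
  have d : Z ⊓ R = ⊥ := eq_bot_mono e1 (le_inf (inf_le_right.trans (le_inf r1 r2)) (inf_le_left.trans inf_le_right))
  have hn' : R ≤ N_(Z) := r1.trans (le_norm_of_abelian h.el.abelian inf_le_left)
  have e : Z ⊔ R = W ⊓ C_[a] := by
    refine eq_of_le_of_card_le (sup_le (le_inf inf_le_left s1) (r3.trans (inf_le_inf_left _ (cent_le_cent1 ha)))) ?_
    have h1 := card_inf_mul_relIndex C_[a] W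
    have h2 := card_le_comm h.el.abelian (h.an ha)
    have h3 := Nat.pos_of_ne_zero (relIndex_ne_zero C_[a] W)
    rw [card_sup_of_disj hn' d]
    rw [inf_comm, e5] at h1
    refine Nat.le_of_mul_le_mul_right ?_ h3
    rw [h1, sq, mul_comm _ (Nat.card Z), mul_assoc]
    exact Nat.mul_le_mul_left _ (Nat.mul_le_mul_right _ h2)
  obtain ⟨v₁, h1, r, hr, rfl⟩ := (mem_sup_norm hn').1 (e ▸ hv)
  have hcr := mem_cent.1 (r3 hr).2 c hc
  have h2 : v₁⁻¹ * (c * v₁ * c⁻¹) ∈ R := by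
    have := conj_mem_of_norm (le_norm R hr) v2
    rwa [show r * ((v₁ * r)⁻¹ * (c * (v₁ * r) * c⁻¹)) * r⁻¹ = v₁⁻¹ * (c * v₁ * c⁻¹) * ((c * r) * c⁻¹ * r⁻¹) by group, hcr,
      mul_inv_cancel_right, mul_inv_cancel, mul_one] at this
  have h3 := eq_one_of_mem_of_disj d (Z.mul_mem (Z.inv_mem h1) (conj_mem_of_norm hz h1)) h2
  rw [inv_mul_eq_one, eq_mul_inv_iff_mul_eq] at h3
  have h4 : v₁ ∈ W ⊓ C_(A) := h.f7 ha hn hb b1 b2 b3 hc c1 c2 ▸ ⟨h1.1, mem_cent1.2 h3⟩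
  exact v1 (Subgroup.mul_mem _ h4.2 (r3 hr).2)

theorem case2 (h1 : Nat.card ↥(A ⊓ C_(W)) * Nat.card W ≤ Nat.card A * Nat.card ↥(W ⊓ C_(A))) : False := by
  have haw : a ∉ C_(W) := fun e => hn (cent_le_norm K ((h.cw_iff ha).1 e))
  have r0 : 1 < C_[a].relIndex W := by
    have h1 := relIndex_ne_zero C_[a] W
    have h2 : C_[a].relIndex W ≠ 1 := fun e => haw (le_cent1_iff.1 (Subgroup.relIndex_eq_one.1 e))
    omega
  have c5 := h.f5 ha hn hb b1 b2 b3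
  have c6 := h.f6 ha hn hb b1 b2 b3 hb b1 b2
  rw [← h.f7 ha hn hb b1 b2 b3 hb b1 b2] at c6
  have c7 := card_inf_mul_relIndex C_[a] W
  obtain ⟨v, hv, v1⟩ : ∃ v ∈ W ⊓ C_[a], v ∉ C_(A) := by
    by_contra hh
    push Not at hh
    have := card_le (le_inf inf_le_left hh : W ⊓ C_[a] ≤ W ⊓ C_(A))
    rw [inf_comm, c6] at this
    have h2 := Nat.mul_le_mul_right (C_[a].relIndex W) this
    rw [c7, c5, ← pow_succ, Nat.pow_le_pow_iff_right r0] at h2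
    omega
  have r3 : ⁅W, Subgroup.zpowers a⁆ ≤ W ⊓ C_(A) := by
    rw [h.f7 ha hn hb b1 b2 b3 hb b1 b2]
    exact le_inf (comm_le_left (Subgroup.zpowers_le.2 (h.an ha)))
      (le_cent1_iff.2 (cent_anti (comm_mono le_rfl (Subgroup.zpowers_le.2 ha)) b3))
  have m1 : ∀ c ∈ A ⊓ N_(K), v⁻¹ * (c * v * c⁻¹) ∈ W ⊓ C_(A) := fun c hc => by
    by_cases c2 : c ∈ C_(K)
    · rw [← mem_cent.1 ((h.cw_iff hc.1).2 c2) v hv.1]; simp
    rw [h.f7 ha hn hb b1 b2 b3 hc.1 hc.2 c2]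
    refine ⟨W.mul_mem (W.inv_mem hv.1) (conj_mem_of_norm (h.an hc.1) hv.1), mem_cent1.2 ?_⟩
    have e1 := inv_eq_of_mul_eq_one_right (h.aa hc.1)
    have e2 : v⁻¹ = v := inv_eq_of_mul_eq_one_right (by rw [← sq, h.el.pow hv.1])
    have e3 := mul_comm_of_abelian h.el.abelian hv.1 (conj_mem_of_norm (h.an hc.1) hv.1)
    rw [e2]
    nth_rewrite 1 [mul_assoc, inv_mul_cancel_right]
    rw [e3, ← mul_assoc, ← mul_assoc, ← mul_assoc, ← mul_assoc, h.aa hc.1, one_mul, e1]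
  have c8 : C_(W).relIndex (A ⊓ N_(K)) ≤ (⁅W, Subgroup.zpowers a⁆ : Subgroup G).relIndex (W ⊓ C_(A)) := by
    refine Nat.card_le_card_of_injective (fun q : ↥(A ⊓ N_(K)) ⧸ C_(W).subgroupOf (A ⊓ N_(K)) =>
      (QuotientGroup.mk ⟨_, m1 _ q.out.2⟩ : ↥(W ⊓ C_(A)) ⧸ (⁅W, Subgroup.zpowers a⁆ : Subgroup G).subgroupOf (W ⊓ C_(A))))
      fun q r e => ?_
    rw [← q.out_eq, ← r.out_eq]
    refine Quotient.sound (QuotientGroup.leftRel_apply.2 (Subgroup.mem_subgroupOf.2 ?_))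
    have hm := (q.out⁻¹ * r.out).2
    refine (h.cw_iff hm.1).2 (h.f8 ha hn hb b1 b2 b3 hm.1 hm.2 hv v1 ?_)
    have e1 := Subgroup.mem_subgroupOf.1 (QuotientGroup.eq.1 e)
    have e2 := mem_cent.1 (m1 _ hm).2 _ q.out.2.1
    rw [← mul_inv_eq_iff_eq_mul] at e2
    rw [← e2]
    convert e1 using 1
    push_cast
    group
  have c9 := card_mul_relIndex r3
  have c10 := card_le_comm h.el.abelian (h.an ha)
  have c11 : N_(K).relIndex A ≤ 2 := by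
    refine le_of_le_of_eq (Nat.card_le_card_of_injective (fun q : A ⧸ N_(K).subgroupOf A => cj (q.out : G) K = K)
      fun q r e => ?_) (by simp)
    rw [← q.out_eq, ← r.out_eq]
    refine Quotient.sound (QuotientGroup.leftRel_apply.2 (Subgroup.mem_subgroupOf.2 (cj_eq_cj_iff.1 ?_)))
    have e' := eq_iff_iff.1 e
    by_cases e1 : cj (q.out : G) K = K
    · rw [e1, e'.1 e1]
    · rw [(h.orbit_two ha hn hb b1 b2 b3 rfl q.out.2).resolve_left e1,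
        (h.orbit_two ha hn hb b1 b2 b3 rfl r.out.2).resolve_left fun e2 => e1 (e'.2 e2)]
  have l1 : A ⊓ C_(W) ≤ A ⊓ N_(K) := fun c hc => ⟨hc.1, cent_le_norm K ((h.cw_iff hc.1).1 hc.2)⟩
  have c12 := relIndex_mul l1 (inf_le_left : A ⊓ N_(K) ≤ A)
  rw [Subgroup.inf_relIndex_left A N_(K), ← Subgroup.inf_relIndex_right _ (A ⊓ N_(K)), inf_comm A C_(W), inf_assoc,
    ← inf_assoc A, inf_idem, Subgroup.inf_relIndex_right, inf_comm C_(W) A] at c12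
  have c13 := card_mul_relIndex (inf_le_left : A ⊓ C_(W) ≤ A)
  set ρ := C_[a].relIndex W
  have c14 : (⁅W, Subgroup.zpowers a⁆ : Subgroup G).relIndex (W ⊓ C_(A)) ≤ ρ := by
    refine Nat.le_of_mul_le_mul_left (c := ρ) ((Nat.mul_le_mul_right _ c10).trans ?_) (by omega)
    rw [c9, c6, sq]
  rw [← c13, ← c12, c5, c6, mul_assoc] at h1
  have c15 := (Nat.le_of_mul_le_mul_left h1 (card_pos _)).trans
    (Nat.mul_le_mul_right _ (Nat.mul_le_mul (c8.trans c14) c11))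
  have c16 : ρ = 2 := by
    rw [show ρ ^ 4 = ρ * ρ ^ 3 by ring, show ρ * 2 * ρ ^ 2 = 2 * ρ ^ 3 by ring] at c15
    have := Nat.le_of_mul_le_mul_right c15 (pow_pos (by omega) 3)
    omega
  obtain ⟨l, hl, l1, l2, x, hx, x1, -, n, x3⟩ := exists_lelt h.qs Nat.prime_two Nat.prime_three
  obtain ⟨e1, -, e3, e4, -⟩ := h.f4 ha hn hb b1 b2 b3 hx x1
    ((hl.odd_of_ne_two l1).pow.of_dvd_nat (orderOf_dvd_of_pow_eq_one x3))
  have hc : Commute x (a * x⁻¹ * a⁻¹) := mem_cent.1 (h.comm a ha hn (conj_mem_cj a (K.inv_mem hx))) x hx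
  have := Fact.mk hl
  have := fpf_dvd hl (IsPGroup.of_card_dvd_pow (n := n) (by
    rw [card_zpowers]
    exact orderOf_dvd_of_pow_eq_one (by rw [hc.mul_pow, conj_pow, inv_pow, x3]; simp))) (Subgroup.zpowers_le.2 e4)
    (by rwa [cent_zpowers])
  rw [e3, show C_[a].relIndex W = 2 from c16] at this
  exact l2 ((Nat.prime_dvd_prime_iff_eq hl Nat.prime_three).1 this)

omit ha hn hb b1 b2 b3 h in
theorem le_norm' (h : PV p W A K) (ho : IsBestOffenderOn p W A) : A ≤ N_(K) := by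
  intro a ha
  by_contra hn
  have := Fact.mk h.hp
  have h0 := ho.1 (A ⊓ C_(W)) inf_le_left
  rw [inf_eq_left.2 (cent_symm inf_le_right : W ≤ C_(A ⊓ C_(W)))] at h0
  obtain ⟨o1, -, o3⟩ := H01.best_repl h.el h.an ho (le_refl W)
  have o4 := o3 fun e => hn (cent_le_norm K ((h.cw_iff ha).1 (cent_symm (comm_eq_bot.1 e) ha)))
  by_cases h1 : (A ⊓ C_(⁅W, A⁆)) ⊓ N_(K) ≤ C_(W)
  · refine h.case1 inf_le_left (fun e => o4 (comm_eq_bot.2 (cent_symm e))) h1 ?_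
    set B := A ⊓ C_(⁅W, A⁆)
    have h2 := o1.1 (B ⊓ C_(W)) inf_le_left
    rw [inf_eq_left.2 (cent_symm inf_le_right : W ≤ C_(B ⊓ C_(W))), ← card_inf_mul_relIndex C_(B) W,
      ← card_inf_mul_relIndex C_(W) B, inf_comm B, inf_comm W, mul_assoc, mul_comm (C_(W).relIndex B)] at h2
    exact Nat.le_of_mul_le_mul_left (Nat.le_of_mul_le_mul_left h2 (card_pos _)) (card_pos _)
  · obtain ⟨b, ⟨⟨hb, b3⟩, b1⟩, b2⟩ := SetLike.not_le_iff_exists.1 h1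
    rw [h.cw_iff hb] at b2
    obtain rfl := h.p_eq_two ha hn hb b1 b2 b3
    exact h.case2 ha hn hb b1 b2 b3 h0

end PV

theorem best_sub (hV : IsElementaryAbelian p V) (ho : IsBestOffenderOn p V A) (hW : W ≤ V) : IsBestOffenderOn p W A := by
  refine ⟨fun B hB => ?_, ho.2.1.trans (cent_anti hW), fun a ha => cent_anti hW (ho.2.2 a ha)⟩
  have h1 := ho.1 B hB
  have h2 := card_sup_mul (K := V ⊓ C_(A)) (H := W ⊓ C_(B)) ((inf_le_left.trans hW).trans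
    (le_norm_of_abelian hV.abelian inf_le_left))
  have h3 := card_le (sup_le (inf_le_inf_left V (cent_anti hB)) (inf_le_inf_right _ hW) :
    (V ⊓ C_(A)) ⊔ (W ⊓ C_(B)) ≤ V ⊓ C_(B))
  have h4 := card_le (le_inf (inf_le_right.trans inf_le_left) (inf_le_left.trans inf_le_right) :
    (V ⊓ C_(A)) ⊓ (W ⊓ C_(B)) ≤ W ⊓ C_(A))
  refine Nat.le_of_mul_le_mul_left (c := Nat.card ↥(V ⊓ C_(A))) ?_ (card_pos _)
  calc _ = Nat.card B * (Nat.card ↥(V ⊓ C_(A)) * Nat.card ↥(W ⊓ C_(B))) := by ring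
    _ ≤ Nat.card B * (Nat.card ↥(V ⊓ C_(B)) * Nat.card ↥(W ⊓ C_(A))) :=
      Nat.mul_le_mul_left _ (h2 ▸ Nat.mul_le_mul h3 h4)
    _ = Nat.card B * Nat.card ↥(V ⊓ C_(B)) * Nat.card ↥(W ⊓ C_(A)) := by ring
    _ ≤ _ := (Nat.mul_le_mul_right _ h1).trans (le_of_eq (by ring))

/-- The `P(G,V)`-theorem, ambient form. -/
theorem pgv (hp : p.Prime) (hV : IsElementaryAbelian p V) (hA : IsElementaryAbelian p A) (an : A ≤ N_(V)) (kn : K ≤ N_(V))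
    (hK : IsQuasisimple K) (hc : ∀ a ∈ A, a ∉ N_(K) → cj a K ≤ C_(K)) (nt : ¬ K ≤ C_(V)) (ho : IsBestOffenderOn p V A) :
    A ≤ N_(K) := by
  obtain ⟨W, hW⟩ := exists_minimal_of_wellFoundedLT (fun W => W ≤ V ∧ A ≤ N_(W) ∧ K ≤ N_(W) ∧ ¬ K ≤ C_(W))
    ⟨V, le_rfl, an, kn, nt⟩
  obtain ⟨h1, h2, h3, h4⟩ := hW.prop
  refine PV.le_norm' ⟨hp, hV.of_le h1, hA, h2, h3, hK, hc, h4, fun U hU u1 u2 => ?_⟩ (best_sub hV ho h1)
  by_contra u3
  exact hU.not_ge (hW.le_of_le ⟨hU.le.trans h1, u1, u2, u3⟩ hU.le)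

end H22.PGV
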