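import Cfsg.Agent.L.Js0
import Cfsg.Agent.S3035
import Cfsg.Agent.H08.Dihedral
import Cfsg.Agent.H02.PPrimeCore
import Cfsg.Agent.H22.JU

/-! Part X of the interface `L.Js`: reduction to four small groups. -/

set_option autoImplicit false
open Subgroup BG Cfsg

namespace H22.S7X
universe u

theorem head {X : Type u} [Group X] [Finite X] (U : Subgroup X) (z : X)
    (h : ∀ w : X, orderOf w = 2 → Nat.card C_[w] ∣ 8 ∨ (3 ∣ Nat.card C_[w] ∧ Nat.card C_[w] ∣ 12))
    (cU : Nat.card U = 4) (hU : ∀ w ∈ U, w ≠ 1 → orderOf w = 2 ∧ Nat.card C_[w] ∣ 8) (hz : orderOf z = 2)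
    (h3 : 3 ∣ Nat.card C_[z]) : Nonempty (X ≃* Equiv.Perm (Fin 4)) ∨ Nonempty (X ≃* Equiv.Perm (Fin 5)) ∨
      Nonempty (X ≃* Matrix.SpecialLinearGroup (Fin 3) (ZMod 2)) ∨ Nonempty (X ≃* ↥(alternatingGroup (Fin 6))) := by
  have p2 := Nat.prime_two
  haveI := Fact.mk p2
  have U2 : ∀ w ∈ U, w * w = 1 := fun w hw => by
    by_cases e : w = 1
    · rw [e, mul_one]
    · rw [← sq, ← (hU w hw e).1, pow_orderOf_eq_one]
  obtain ⟨P, hP, UP⟩ := sylow_superset p2 (IsPGroup.of_card (n := 2) cU) (le_top (a := U))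
  obtain ⟨g, -, l⟩ := sylow_Jsub p2 hP (IsPGroup.of_card (G := zpowers z) (n := 1) (by rw [Nat.card_zpowers, hz]; rfl)) le_top
  have bP := l (conj_mem_cj g (mem_zpowers z))
  set b := g * z * g⁻¹ with hb
  have b2 : orderOf b = 2 := ((MulAut.conj g).orderOf_eq z).trans hz
  have b3 : 3 ∣ Nat.card C_[b] := by rw [hb, ← cj_cent1, card_cj]; exact h3
  have n8 : ∀ {n : ℕ}, 3 ∣ n → ¬ n ∣ 8 := fun a b => by have := a.trans b; omega
  have b12 := ((h b b2).resolve_left (n8 b3)).2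
  have b1 : b ≠ 1 := fun e => by simp [e] at b2
  have bb : b * b = 1 := by rw [← sq, ← b2, pow_orderOf_eq_one]
  have bU : b ∉ U := fun k => n8 b3 (hU b k b1).2
  obtain ⟨y, hy, y1⟩ := exists_mem_ne_one (pg_center_ne_bot p2 (hP.pg p2) (ne_bot_of_mem bP b1))
  obtain ⟨t, tP, t2, Pt⟩ : ∃ t ∈ P, orderOf t = 2 ∧ P ≤ C_[t] := by
    have pz : IsPGroup 2 (zpowers y) := (hP.pg p2).to_le (zpowers_le.2 hy.1)
    obtain ⟨n, hn⟩ := IsPGroup.iff_card.1 pz
    obtain ⟨⟨t, ht⟩, o⟩ := exists_prime_orderOf_dvd_card' (G := zpowers y) 2 (by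
      rw [hn]
      refine dvd_pow_self 2 fun e => y1 ?_
      rw [e, Nat.card_zpowers] at hn
      exact orderOf_eq_one_iff.1 hn)
    obtain ⟨k, rfl⟩ := mem_zpowers_iff.1 ht
    exact ⟨_, P.zpow_mem hy.1 k, by rw [← o, orderOf_mk], fun x hx => mem_cent1.2
      ((show Commute x y from hy.2 x hx).zpow_right k).eq⟩
  obtain ⟨n, hn⟩ := IsPGroup.iff_card.1 (hP.pg p2)
  have d8 : 8 ∣ Nat.card P := by
    have a1 : Nat.card U < Nat.card P := lt_of_le_of_ne (card_le_of_le UP) fun e =>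
      bU ((eq_of_le_of_card_ge UP e.ge).ge bP)
    rw [cU, hn] at a1
    rw [hn]
    exact pow_dvd_pow 2 ((Nat.pow_lt_pow_iff_right (a := 2) (n := 2) (by norm_num)).1 a1)
  have c8 : Nat.card C_[t] ∣ 8 := (h t t2).resolve_right fun k => by
    have := (d8.trans (card_dvd_of_le Pt)).trans k.2
    omega
  have ct : Nat.card C_[t] = 8 := Nat.dvd_antisymm c8 (d8.trans (card_dvd_of_le Pt))
  have cP : Nat.card P = 8 := Nat.dvd_antisymm ((card_dvd_of_le Pt).trans c8) d8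
  have eP : P = C_[t] := eq_of_le_of_card_ge Pt (by rw [ct, cP])
  obtain ⟨a, aU, ab⟩ : ∃ a ∈ U, a * b ≠ b * a := by
    by_contra! k
    have a1 : U ≤ P ⊓ C_[b] := fun a ha => ⟨UP ha, mem_cent1.2 (k a ha)⟩
    have a2 : Nat.card U < Nat.card ↥(P ⊓ C_[b]) := lt_of_le_of_ne (card_le_of_le a1) fun e =>
      bU ((eq_of_le_of_card_ge a1 e.ge).ge ⟨bP, mem_cent1.2 rfl⟩)
    have a3 := Nat.le_of_dvd (by norm_num) (Nat.dvd_gcd (cP ▸ card_dvd_of_le (inf_le_left : P ⊓ C_[b] ≤ P))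
      ((card_dvd_of_le (inf_le_right : P ⊓ C_[b] ≤ _)).trans b12))
    rw [cU] at a2
    exact absurd (a2.trans_le a3) (by norm_num)
  have aa := U2 a aU
  have ai : a⁻¹ = a := inv_eq_of_mul_eq_one_right aa
  have bi : b⁻¹ = b := inv_eq_of_mul_eq_one_right bb
  have nz : b ∉ zpowers (a * b) := fun k => by
    obtain ⟨k, e⟩ := mem_zpowers_iff.1 k
    have : Commute (a * b) b := by
      nth_rw 2 [← e]
      exact (Commute.refl _).zpow_right k
    exact ab (mul_right_cancel (this.eq.trans (mul_assoc b a b).symm))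
  obtain ⟨e⟩ := H08.nonempty_closure_equiv_dihedral (r := a * b) (s := b) (orderOf_pos _).ne' rfl bb
    (by rw [bi, mul_inv_rev a, ai, bi, mul_assoc b, mul_assoc a, bb, mul_one]) nz
  have cl : closure ({a * b, b} : Set X) ≤ P := (closure_le _).2 (by
    rintro _ (rfl | rfl)
    exacts [mul_mem (UP aU) bP, bP])
  have cc : Nat.card (closure ({a * b, b} : Set X)) = 2 * orderOf (a * b) := by
    haveI : NeZero (orderOf (a * b)) := ⟨(orderOf_pos _).ne'⟩
    rw [Nat.card_congr e.toEquiv, Nat.card_eq_fintype_card, DihedralGroup.card]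
  have o4 : orderOf (a * b) = 4 := by
    have d := card_dvd_of_le cl
    rw [cc, cP] at d
    have d' : orderOf (a * b) ∣ 2 ^ 2 := Nat.dvd_of_mul_dvd_mul_left (by norm_num : 0 < 2) d
    obtain ⟨k, hk, e⟩ := (Nat.dvd_prime_pow p2).1 d'
    have : ¬ orderOf (a * b) ∣ 2 := fun k => ab (by
      have := orderOf_dvd_iff_pow_eq_one.1 k
      have e2 := inv_eq_of_mul_eq_one_right (by rwa [sq] at this : a * b * (a * b) = 1)
      rw [mul_inv_rev a, ai, bi] at e2
      exact e2.symm)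
    interval_cases k <;> simp_all
  have eC : closure ({a * b, b} : Set X) = C_[t] := eq_of_le_of_card_ge (eP ▸ cl) (by rw [cc, o4, ct])
  rw [o4, eC] at e
  refine (Cfsg.Agent.S3035.result t t2 ⟨e⟩).resolve_left fun k => ?_
  have od := H02.pPrimeCore_coprime 2 X
  have inv : ∀ w ∈ U, w ≠ 1 → ∀ x ∈ oddCore X, w * x * w⁻¹ = x⁻¹ := by
    intro w hw w1 x hx
    let φ : oddCore X →* oddCore X := (MulAut.conjNormal w).toMonoidHom
    have fp : MonoidHom.FixedPointFree φ := fun v hv => by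
      have a1 : (v : X) ∈ C_[w] := mem_cent1.2 (mul_inv_eq_iff_eq_mul.1 (congrArg Subtype.val hv)).symm
      have a2 := (Subgroup.orderOf_dvd_natCard _ a1).trans (hU w hw w1).2
      exact Subtype.ext (orderOf_eq_one_iff.1 (Nat.eq_one_of_dvd_coprimes (od.pow_right 3)
        (Subgroup.orderOf_dvd_natCard _ v.2) a2))
    have := fp.coe_eq_inv_of_involutive fun v => Subtype.ext (by
      change w * (w * v * w⁻¹) * w⁻¹ = v
      rw [show w * (w * v * w⁻¹) * w⁻¹ = (w * w) * v * (w * w)⁻¹ by group, U2 w hw]; simp)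
    exact congrArg Subtype.val (congrFun this ⟨x, hx⟩)
  obtain ⟨u, hu, v, hv, u1, v1, uv⟩ := H22.JU.two_elts U (by rw [cU]; norm_num)
  have ob : oddCore X = ⊥ := eq_bot_iff.2 fun x hx => by
    have a1 := inv _ (mul_mem hu hv) (fun e => uv (mul_right_cancel (e.trans (U2 v hv).symm))) x hx
    rw [show u * v * x * (u * v)⁻¹ = u * (v * x * v⁻¹) * u⁻¹ by group, inv v hv v1 x hx, inv u hu u1 _ (inv_mem hx),
      inv_inv] at a1
    exact orderOf_eq_one_iff.1 (Nat.eq_one_of_dvd_coprimes od (Subgroup.orderOf_dvd_natCard _ hx)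
      (orderOf_dvd_of_pow_eq_one (by rw [sq]; nth_rw 2 [a1]; exact mul_inv_cancel x)))
  rw [ob, sup_bot_eq] at k
  exact n8 h3 (ct ▸ card_dvd_of_le (k ▸ le_top))

end H22.S7X
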