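import Mathlib
import Cfsg.Agent.H12.Richen

/-!
# Weights of an abelian normal subgroup and fixed points of a `p`-subgroup in characteristic `p` (helper22)

* `fx ρ T` : the fixed space; `fx_bc`, `finrank_bc` : base change
* `Ch A K` : characters of `A` with the conjugation action; `pr` : projections; `le_finrank`, `two_le`, `three_le`
-/

set_option autoImplicit false
set_option linter.unusedSectionVars false
open Module MulAction TensorProduct
open scoped commutatorElement Pointwise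

namespace H22.Wt
variable {G K V : Type*} [Group G] [Field K] [AddCommGroup V] [Module K V]

/-- the fixed space -/
def fx (ρ : Representation K G V) (T : Subgroup G) : Submodule K V where
  carrier := {v | ∀ t ∈ T, ρ t v = v}
  zero_mem' := fun _ _ => map_zero _
  add_mem' := fun hv hw t ht => by rw [map_add, hv t ht, hw t ht]
  smul_mem' := fun c v hv t ht => by rw [map_smul, hv t ht]

/-- base change of a representation -/
noncomputable def bc (L : Type*) [Field L] [Algebra K L] (ρ : Representation K G V) : Representation L G (L ⊗[K] V) :=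
  (Module.End.baseChangeHom K L V).toMonoidHom.comp ρ

section
variable (L : Type*) [Field L] [Algebra K L] (ρ : Representation K G V)

theorem bc_tmul (g : G) (c : L) (v : V) : bc L ρ g (c ⊗ₜ v) = c ⊗ₜ ρ g v := rfl

theorem fx_bc (T : Subgroup G) : fx (bc L ρ) T = (fx ρ T).baseChange L := by
  classical
  refine le_antisymm (fun w hw => ?_) ?_
  · let b := Basis.ofVectorSpace K L
    have k : ∀ g (w : L ⊗[K] V) i, equivFinsuppOfBasisLeft b (bc L ρ g w) i = ρ g (equivFinsuppOfBasisLeft b w i) := fun g w i => by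
      induction w with
      | zero => simp
      | tmul c v => simp [bc_tmul]
      | add x y hx hy => simp [hx, hy]
    rw [← (equivFinsuppOfBasisLeft b).symm_apply_apply w, equivFinsuppOfBasisLeft_symm_apply]
    exact Submodule.sum_mem _ fun i _ => Submodule.tmul_mem_baseChange_of_mem _ fun t ht => by rw [← k, hw t ht]
  · rw [Submodule.baseChange_eq_span, Submodule.span_le]
    rintro _ ⟨v, hv, rfl⟩ t ht
    exact (bc_tmul L ρ t 1 v).trans (by rw [hv t ht]; rfl)

theorem finrank_bc [FiniteDimensional K V] (T : Subgroup G) : finrank L (fx (bc L ρ) T) ≤ finrank K (fx ρ T) := by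
  rw [fx_bc, ← Module.finrank_baseChange (R := L) (S := K) (M' := fx ρ T)]
  exact LinearMap.finrank_range_le _

theorem bc_inv {T : Subgroup G} {g : G} (h : ∀ v ∈ fx ρ T, ρ g v ∈ fx ρ T) : ∀ w ∈ fx (bc L ρ) T, bc L ρ g w ∈ fx (bc L ρ) T := by
  rw [fx_bc]
  refine fun w hw => (?_ : (fx ρ T).baseChange L ≤ ((fx ρ T).baseChange L).comap (bc L ρ g)) hw
  conv_lhs => rw [Submodule.baseChange_eq_span]
  rw [Submodule.span_le]
  rintro _ ⟨v, hv, rfl⟩
  exact Submodule.tmul_mem_baseChange_of_mem 1 (h v hv)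

end

/-- characters of a normal subgroup -/
def Ch (A : Subgroup G) (K : Type*) [Field K] : Type _ := A →* Kˣ

variable {A : Subgroup G} [A.Normal]

/-- value of a character -/
def Ch.v (χ : Ch A K) : A →* Kˣ := χ

instance : MulAction G (Ch A K) where
  smul g χ := χ.v.comp (MulAut.conjNormal g⁻¹).toMonoidHom
  one_smul χ := MonoidHom.ext fun a => congrArg χ.v (Subtype.ext (by simp))
  mul_smul g h χ := MonoidHom.ext fun a => congrArg χ.v (Subtype.ext (by simp [mul_assoc]))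

theorem smul_v (g : G) (χ : Ch A K) (a : A) : (g • χ).v a = χ.v (MulAut.conjNormal g⁻¹ a) := rfl

variable (ρ : Representation K G V)

/-- weight space -/
def ws (χ : Ch A K) : Submodule K V where
  carrier := {v | ∀ a : A, ρ a v = (χ.v a : K) • v}
  zero_mem' := fun _ => by simp
  add_mem' := fun hv hw t => by rw [map_add, hv t, hw t, smul_add]
  smul_mem' := fun c v hv t => by rw [map_smul, hv t, smul_comm]

variable {ρ} {χ ψ : Ch A K} {v : V} {g : G} {T : Subgroup G}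

theorem rho_cj (g : G) (a : A) (v : V) : ρ a (ρ g v) = ρ g (ρ (MulAut.conjNormal g⁻¹ a : A) v) := by
  rw [← Module.End.mul_apply, ← Module.End.mul_apply, ← map_mul, ← map_mul]; simp [mul_assoc]

theorem ws_smul (g : G) (h : v ∈ ws ρ χ) : ρ g v ∈ ws ρ (g • χ) := fun a => by rw [rho_cj, h, map_smul, smul_v]

theorem rho_ne (g : G) (h : v ≠ 0) : ρ g v ≠ 0 := fun e => h (by
  rw [← Module.End.one_apply (R := K) v, ← map_one ρ, ← inv_mul_cancel g, map_mul, Module.End.mul_apply, e, map_zero])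

theorem ws_ne (g : G) (h : ws ρ χ ≠ ⊥) : ws ρ (g • χ) ≠ ⊥ := by
  obtain ⟨v, hv, h0⟩ := Submodule.exists_mem_ne_zero_of_ne_bot h
  exact (Submodule.ne_bot_iff _).2 ⟨_, ws_smul g hv, rho_ne g h0⟩

theorem exists_ws [IsAlgClosed K] [FiniteDimensional K V] [Nontrivial V] (ρ : Representation K G V)
    (ab : ∀ a ∈ A, ∀ b ∈ A, a * b = b * a) : ∃ χ : Ch A K, ws ρ χ ≠ ⊥ := by
  obtain ⟨v, -, v0, χ, hv⟩ := H12.Ri.exists_eigen ρ ab ⊤ (fun _ _ _ _ => trivial) top_ne_bot
  exact ⟨χ, (Submodule.ne_bot_iff _).2 ⟨v, hv, v0⟩⟩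

variable [Fintype A]

/-- projection onto a weight space (up to the factor `|A|`) -/
noncomputable def pr (ρ : Representation K G V) (χ : Ch A K) : V →ₗ[K] V := ∑ a : A, ((χ.v a)⁻¹ : Kˣ).1 • ρ a

theorem pr_apply (v : V) : pr ρ χ v = ∑ a : A, ((χ.v a)⁻¹ : Kˣ).1 • ρ a v := by simp [pr, LinearMap.sum_apply]

theorem pr_self (h : v ∈ ws ρ χ) : pr ρ χ v = (Fintype.card A : K) • v := by
  rw [pr_apply, Finset.sum_congr rfl fun a _ => by rw [h a, smul_smul, Units.inv_mul, one_smul]]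
  simp [Nat.cast_smul_eq_nsmul]

theorem pr_ne (h : v ∈ ws ρ ψ) (e : χ ≠ ψ) : pr ρ χ v = 0 := by
  rw [pr_apply, Finset.sum_congr rfl fun a _ => by rw [h a, smul_smul], ← Finset.sum_smul]
  have := sum_hom_units_eq_zero ((Units.coeHom K).comp (χ.v⁻¹ * ψ.v)) fun k => e (MonoidHom.ext fun a => by
    have := DFunLike.congr_fun k a
    simp only [MonoidHom.comp_apply, MonoidHom.mul_apply, MonoidHom.inv_apply, Units.coeHom_apply, MonoidHom.one_apply,
      Units.val_eq_one, inv_mul_eq_one] at this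
    exact this)
  simp only [MonoidHom.comp_apply, MonoidHom.mul_apply, MonoidHom.inv_apply, Units.coeHom_apply, Units.val_mul] at this
  rw [this, zero_smul]

theorem pr_smul (g : G) (v : V) : pr ρ (g • χ) (ρ g v) = ρ g (pr ρ χ v) := by
  rw [pr_apply, pr_apply, map_sum]
  refine Fintype.sum_equiv (MulAut.conjNormal g⁻¹).toEquiv _ _ fun a => ?_
  rw [rho_cj, map_smul, smul_v]; rfl

theorem supp_smul (g : G) (h : pr ρ χ v ≠ 0) : pr ρ (g • χ) (ρ g v) ≠ 0 := by rw [pr_smul]; exact rho_ne g h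

variable [Finite G] {r : ℕ} [Fact r.Prime] [CharP K r] (hT : IsPGroup r T) (hA : (Fintype.card A : K) ≠ 0)
include hT hA

theorem vec (h : ws ρ χ ≠ ⊥) : ∃ v ∈ fx ρ T, ∀ ψ, pr ρ ψ v ≠ 0 ↔ ψ ∈ orbit T χ := by
  classical
  let U : Submodule K V := ⨆ t : T, ws ρ (t • χ)
  obtain ⟨v, hv, h0, hf⟩ := H12.Ri.exists_fixed ρ hT U (fun u hu => (show U ≤ U.comap (ρ u) from iSup_le fun t w hw =>
    Submodule.mem_iSup_of_mem (⟨u, hu⟩ * t) (by rw [mul_smul]; exact ws_smul u hw))) fun e =>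
      h (eq_bot_iff.2 (e ▸ le_iSup_of_le (1 : T) (by rw [one_smul])))
  have k1 : ∀ ψ, pr ρ ψ v ≠ 0 → ψ ∈ orbit T χ := fun ψ => by
    rw [not_imp_comm]
    intro k
    have : U ≤ LinearMap.ker (pr ρ ψ) := iSup_le fun t w hw => LinearMap.mem_ker.2 (pr_ne (χ := ψ) hw fun e => k ⟨t, e.symm⟩)
    exact this hv
  have k2 : ∃ ψ : Ch A K, pr ρ ψ v ≠ 0 := by
    by_contra! k
    let O := (Set.finite_range fun t : T => t • χ).toFinset
    have : U ≤ LinearMap.eqLocus (∑ ψ ∈ O, pr ρ ψ) ((Fintype.card A : K) • LinearMap.id) := iSup_le fun t w hw => by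
      rw [LinearMap.mem_eqLocus, LinearMap.sum_apply, Finset.sum_eq_single (t • χ) (fun ψ _ e => pr_ne hw e)
        fun e => absurd (by simp [O]) e, pr_self hw]; rfl
    have := this hv
    rw [LinearMap.mem_eqLocus, LinearMap.sum_apply, Finset.sum_eq_zero fun ψ _ => k ψ] at this
    exact h0 ((smul_eq_zero.1 this.symm).resolve_left hA)
  refine ⟨v, hf, fun ψ => ⟨k1 ψ, fun ⟨t, e⟩ => ?_⟩⟩
  obtain ⟨φ, hφ⟩ := k2
  obtain ⟨s, rfl⟩ := k1 φ hφ
  have := supp_smul ((t * s⁻¹ : T) : G) hφ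
  rw [hf _ (t * s⁻¹).2] at this
  have j : (t * s⁻¹) • s • χ = ψ := by rw [smul_smul, inv_mul_cancel_right]; exact e
  exact j ▸ this

theorem le_finrank [FiniteDimensional K V] {n : ℕ} (c : Fin n → Ch A K) (h : ∀ i, ws ρ (c i) ≠ ⊥)
    (hc : ∀ i j, c i ∈ orbit T (c j) → i = j) : n ≤ finrank K (fx ρ T) := by
  choose v hv k using fun i => vec hT hA (h i)
  have : LinearIndependent K fun i => (⟨v i, hv i⟩ : fx ρ T) := by
    refine LinearIndependent.of_comp (fx ρ T).subtype (Fintype.linearIndependent_iff.2 fun a e j => ?_)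
    have := congrArg (pr ρ (c j)) e
    rw [map_sum, map_zero, Finset.sum_eq_single j (fun i _ e => by
      rw [map_smul]; exact smul_eq_zero_of_right _ (by_contra fun u => e (hc _ _ ((k i _).1 u)).symm))
      (fun e => absurd (Finset.mem_univ j) e), map_smul] at this
    exact (smul_eq_zero.1 this).resolve_right ((k j _).2 (mem_orbit_self _))
  simpa using this.fintype_card_le_finrank

omit hA in
theorem not_inv {q : ℕ} (hq : q.Prime) (hr : q ≠ r) (hg : orderOf g = q) (hc : ⁅A, Subgroup.zpowers g⁆ = A) (h0 : fx ρ A = ⊥)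
    (h : ws ρ χ ≠ ⊥) : ¬ ∀ ψ ∈ orbit T χ, g • ψ ∈ orbit T χ := fun k => by
  have := Fact.mk hq
  have fin : (orbit T χ).Finite := Set.finite_range _
  have hs : Subgroup.zpowers g ≤ stabilizer G (orbit T χ) := Subgroup.zpowers_le.2
    ((mem_stabilizer_set_iff_smul_set_subset fin).2 (by rintro _ ⟨ψ, hψ, rfl⟩; exact k ψ hψ))
  let X : SubMulAction (Subgroup.zpowers g) (Ch A K) :=
    ⟨orbit T χ, fun c ψ hψ => (mem_stabilizer_set.1 (hs c.2) ψ).2 hψ⟩
  have : Finite X := fin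
  have : Finite (orbit T χ) := fin
  obtain ⟨n, hn⟩ := hT.card_orbit χ
  obtain ⟨⟨ψ, t, rfl⟩, hψ⟩ := (IsPGroup.of_card (G := Subgroup.zpowers g) (n := 1)
    (by rw [Nat.card_zpowers, hg, pow_one])).nonempty_fixed_point_of_prime_not_dvd_card X fun e => by
      have e' : q ∣ r ^ n := hn ▸ e
      exact hr ((Nat.prime_dvd_prime_iff_eq hq Fact.out).1 (hq.dvd_of_dvd_pow e'))
  obtain ⟨v, hv, v0⟩ := Submodule.exists_mem_ne_zero_of_ne_bot (ws_ne (t : G) h)
  refine v0 ((Submodule.mem_bot K).1 (h0 ▸ fun a ha => ?_))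
  have k : A ≤ (((t : G) • χ).v.ker).map A.subtype := by
    conv_lhs => rw [← hc]
    refine Subgroup.commutator_le.2 fun a ha y hy => ⟨⟨a, ha⟩ * MulAut.conjNormal y (⟨a, ha⟩ : A)⁻¹, ?_, by
      simp [commutatorElement_def, mul_assoc]⟩
    have e : y⁻¹ • (t : G) • χ = (t : G) • χ := congrArg Subtype.val (hψ ⟨y⁻¹, inv_mem hy⟩)
    have e' := smul_v y⁻¹ ((t : G) • χ) (⟨a, ha⟩ : A)⁻¹
    rw [e, inv_inv] at e'
    rw [SetLike.mem_coe, MonoidHom.mem_ker, map_mul, ← e', ← map_mul, mul_inv_cancel, map_one]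
  obtain ⟨b, hb, rfl⟩ := k ha
  have := hv b
  rwa [MonoidHom.mem_ker.1 hb, Units.val_one, one_smul] at this

variable [IsAlgClosed K] [FiniteDimensional K V] [Nontrivial V] (ab : ∀ a ∈ A, ∀ b ∈ A, a * b = b * a) (h0 : fx ρ A = ⊥)
  {q : ℕ} (hq : q.Prime) (hr : q ≠ r)
include ab h0 hq hr

theorem two_le (hg : orderOf g = q) (hc : ⁅A, Subgroup.zpowers g⁆ = A) : 2 ≤ finrank K (fx ρ T) := by
  obtain ⟨χ, h⟩ := exists_ws ρ ab
  have := not_inv hT hq hr hg hc h0 h
  push Not at this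
  obtain ⟨_, ⟨t, rfl⟩, k⟩ := this
  refine le_finrank hT hA ![χ, g • (t : G) • χ] (fun i => ?_) fun i j e => ?_
  · fin_cases i; exacts [h, ws_ne g (ws_ne _ h)]
  · fin_cases i <;> fin_cases j
    exacts [rfl, absurd (mem_orbit_symm.1 e) k, absurd e k, rfl]

theorem three_le (h2 : q ≠ 2) {X : Subgroup G} (hX : Nat.card X = q) (hc : ⁅A, X⁆ = A)
    (hi : ∀ g ∈ X, ∀ v ∈ fx ρ T, ρ g v ∈ fx ρ T) : 3 ≤ finrank K (fx ρ T) := by
  have := Fact.mk hq
  obtain ⟨χ, h⟩ := exists_ws ρ ab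
  have o : ∀ g ∈ X, g ≠ 1 → orderOf g = q := fun g hg g1 =>
    ((Nat.dvd_prime hq).1 (hX ▸ Subgroup.orderOf_dvd_natCard X hg)).resolve_left fun e => g1 (orderOf_eq_one_iff.1 e)
  have key : ∀ g ∈ X, g ≠ 1 → ∀ ψ : Ch A K, ws ρ ψ ≠ ⊥ → g • ψ ∉ orbit T ψ := fun g hg g1 ψ hψ e => by
    have g1' : g⁻¹ ≠ 1 := inv_ne_one.2 g1
    have z : Subgroup.zpowers g⁻¹ = X := Subgroup.eq_of_le_of_card_ge (Subgroup.zpowers_le.2 (inv_mem hg))
      (by rw [Nat.card_zpowers, o _ (inv_mem hg) g1', hX])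
    refine not_inv hT hq hr (o _ (inv_mem hg) g1') (z ▸ hc) h0 hψ fun φ hφ => ?_
    obtain ⟨w, hw, k⟩ := vec hT hA hψ
    obtain ⟨t, rfl⟩ : φ ∈ orbit T (g • ψ) := by rwa [orbit_eq_iff.2 e]
    have := supp_smul (t : G) (supp_smul g ((k ψ).2 (mem_orbit_self ψ)))
    rw [hi g hg w hw _ t.2] at this
    have := supp_smul g⁻¹ this
    rw [← Module.End.mul_apply (ρ g⁻¹), ← map_mul, inv_mul_cancel, map_one] at this
    exact (k _).1 this
  obtain ⟨g, hg, g1⟩ := (Subgroup.nontrivial_iff_exists_ne_one X).1 (Finite.one_lt_card_iff_nontrivial.1 (hX ▸ hq.one_lt))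
  have g2 : g * g ≠ 1 := fun e => h2 ((Nat.prime_dvd_prime_iff_eq hq Nat.prime_two).1
    (o g hg g1 ▸ orderOf_dvd_of_pow_eq_one (by rw [pow_two, e])))
  have a1 := key g hg g1 χ h
  have a2 := key g hg g1 _ (ws_ne g h)
  have a3 := key _ (mul_mem hg hg) g2 χ h
  rw [mul_smul] at a3
  refine le_finrank hT hA ![χ, g • χ, g • g • χ] (fun i => ?_) fun i j e => ?_
  · fin_cases i; exacts [h, ws_ne g h, ws_ne g (ws_ne g h)]
  · fin_cases i <;> fin_cases j
    exacts [rfl, absurd (mem_orbit_symm.1 e) a1, absurd (mem_orbit_symm.1 e) a3, absurd e a1, rfl,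
      absurd (mem_orbit_symm.1 e) a2, absurd e a3, absurd e a2, rfl]

end H22.Wt
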